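import Mathlib

/-!
# A Burnside count for products, and conjugation on invariant subsets
-/

set_option autoImplicit false

namespace Cfsg.Agent.Lib.PiClass.Burn

open MulAction

universe u

section abstract

variable {M A B : Type*} [Group M] [Finite M] [MulAction M A] [MulAction M B] [Finite A] [Finite B]

theorem card_fixedBy_prod (g : M) :
    Nat.card (fixedBy (A × B) g) = Nat.card (fixedBy A g) * Nat.card (fixedBy B g) := by
  rw [← Nat.card_prod]
  refine Nat.card_congr ⟨fun x => (⟨x.1.1, ?_⟩, ⟨x.1.2, ?_⟩), fun y => ⟨(y.1.1, y.2.1), ?_⟩, ?_, ?_⟩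
  · have h : g • x.1 = x.1 := x.2
    exact congrArg Prod.fst h
  · have h : g • x.1 = x.1 := x.2
    exact congrArg Prod.snd h
  · have h1 : g • y.1.1 = y.1.1 := y.1.2
    have h2 : g • y.2.1 = y.2.1 := y.2.2
    exact Prod.ext h1 h2
  · intro x
    rfl
  · intro y
    rfl

/-- Burnside's lemma with `Nat.card`. -/
theorem burnside_nat (M X : Type*) [Group M] [Fintype M] [MulAction M X] [Finite X] :
    (∑ g : M, Nat.card (fixedBy X g)) = Nat.card (orbitRel.Quotient M X) * Nat.card M := by
  classical
  haveI : ∀ g : M, Fintype (fixedBy X g) := fun g => Fintype.ofFinite _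
  haveI := Fintype.ofFinite (orbitRel.Quotient M X)
  have h := MulAction.sum_card_fixedBy_eq_card_orbits_mul_card_group M X
  simp only [Nat.card_eq_fintype_card]
  exact h

/-- The Burnside count for `M` acting on `A × B` when the kernel of the action on `A` is `Y` (or
contains it) and the other elements have few fixed points on `A`. -/
theorem burnside_prod (Y : Subgroup M) (c : ℕ) (hc : 1 ≤ c)
    (hY : ∀ g ∈ Y, ∀ a : A, g • a = a)
    (hnY : ∀ g, g ∉ Y → c * Nat.card (fixedBy A g) ≤ Nat.card A) :
    c * (Nat.card (orbitRel.Quotient M (A × B)) * Nat.card M) ≤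
      (c - 1) * Nat.card A * (Nat.card (orbitRel.Quotient Y B) * Nat.card Y) +
        Nat.card A * (Nat.card (orbitRel.Quotient M B) * Nat.card M) := by
  classical
  haveI := Fintype.ofFinite M
  obtain ⟨d, rfl⟩ : ∃ d, c = d + 1 := ⟨c - 1, by omega⟩
  simp only [Nat.add_sub_cancel]
  have h1 := burnside_nat M (A × B)
  have h2 := burnside_nat M B
  have h3 := burnside_nat Y B
  rw [← h1, ← h2, ← h3]
  have h4 : ∑ y : Y, Nat.card (fixedBy B y) =
      ∑ g : M, if g ∈ Y then Nat.card (fixedBy B g) else 0 := by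
    rw [Finset.sum_ite, Finset.sum_const_zero, add_zero]
    symm
    apply Finset.sum_subtype
    simp
  rw [h4, Finset.mul_sum, Finset.mul_sum, Finset.mul_sum, ← Finset.sum_add_distrib]
  apply Finset.sum_le_sum
  intro g _
  rw [card_fixedBy_prod]
  by_cases hg : g ∈ Y
  · have h5 : Nat.card (fixedBy A g) = Nat.card A := by
      refine Nat.card_congr ⟨fun x => x.1, fun x => ⟨x, hY g hg x⟩, ?_, ?_⟩
      · intro x
        rfl
      · intro x
        rfl
    rw [h5, if_pos hg]
    apply le_of_eq
    ring
  · rw [if_neg hg, mul_zero, zero_add, ← mul_assoc]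
    exact Nat.mul_le_mul_right _ (hnY g hg)

theorem orb_eq {a b : A} (g : M) (h : g • b = a) :
    (Quotient.mk'' a : orbitRel.Quotient M A) = Quotient.mk'' b :=
  Quotient.sound (orbitRel_apply.mpr ⟨g, h⟩)

end abstract

section conj

variable {G : Type u} [Group G]

/-- The subset `X`, with the conjugation action of the subgroup `M`. -/
def InvSet (M : Subgroup G) (X : Set G) (_h : ∀ g ∈ M, ∀ x ∈ X, g * x * g⁻¹ ∈ X) : Type u := X

variable {M : Subgroup G} {X : Set G} {h : ∀ g ∈ M, ∀ x ∈ X, g * x * g⁻¹ ∈ X}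

instance : MulAction M (InvSet M X h) where
  smul g x := ⟨(g : G) * x.1 * (g : G)⁻¹, h g g.2 x.1 x.2⟩
  one_smul x := Subtype.ext (by
    change (1 : G) * x.1 * (1 : G)⁻¹ = x.1
    group)
  mul_smul g g' x := Subtype.ext (by
    change ((g : G) * (g' : G)) * x.1 * ((g : G) * (g' : G))⁻¹ =
      (g : G) * ((g' : G) * x.1 * (g' : G)⁻¹) * (g : G)⁻¹
    group)

instance [Finite G] : Finite (InvSet M X h) := inferInstanceAs (Finite X)

/-- The underlying element. -/
def InvSet.val (x : InvSet M X h) : G := Subtype.val x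

theorem InvSet.mem (x : InvSet M X h) : x.val ∈ X := Subtype.property x

/-- Element of an invariant subset. -/
def InvSet.mk (x : G) (hx : x ∈ X) : InvSet M X h := ⟨x, hx⟩

@[simp] theorem InvSet.val_mk (x : G) (hx : x ∈ X) : (InvSet.mk x hx : InvSet M X h).val = x := rfl

theorem InvSet.ext {x y : InvSet M X h} (e : x.val = y.val) : x = y := Subtype.ext e

theorem smul_val (g : M) (x : InvSet M X h) : (g • x).val = (g : G) * x.val * (g : G)⁻¹ := rfl

theorem card_invSet : Nat.card (InvSet M X h) = Nat.card X := rfl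

end conj

end Cfsg.Agent.Lib.PiClass.Burn
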