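import Cfsg.Agent.Lib.PiClass.Burn
import Cfsg.Agent.Lib.Transfer.PiClasses2
import Cfsg.Agent.Lib.Coprime.Action

/-!
# Counting classes of `π`-elements through a Sylow subgroup

* `card_insert_le`: `k_{σ ∪ {s}}(G) ≤ k_σ(G) |G|_s`.
* `count_E2`: if `S` is Sylow `s` in `G`, `s ∉ σ`, `M = N_G(S)`, `Y = C_G(S)` then
  `s |M| k_{σ ∪ {s}}(G) ≤ (s - 1) |S| |Y| k_σ(Y) + |S| |M| k_σ(G)`.
-/

set_option autoImplicit false
set_option linter.unusedSectionVars false
set_option linter.style.haveILetI false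
set_option linter.style.longLine false

namespace Cfsg.Agent.Lib.PiClass.Count

open Subgroup MulAction
open Cfsg.Agent.Lib.PiClass.Burn
open Cfsg.Agent.Lib.Transfer.Basic Cfsg.Agent.Lib.Transfer.ClassCount
  Cfsg.Agent.Lib.Transfer.PiClasses Cfsg.Agent.Lib.Transfer.PiClasses2
open Cfsg.Agent.Lib.Coprime.Action
open Cfsg.Agent.Lib.Transfer.Frobenius

universe u

variable {G : Type u} [Group G]

/-- `σ`-elements. -/
def IsSig (σ : Finset ℕ) (x : G) : Prop := ∀ r : ℕ, r.Prime → r ∣ orderOf x → r ∈ σ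

theorem orderOf_conj' (t x : G) : orderOf (t * x * t⁻¹) = orderOf x :=
  (orderOf_of_isConj (isConj_iff.mpr ⟨t, rfl⟩)).symm

theorem IsSig.conj {σ : Finset ℕ} {x : G} (h : IsSig σ x) (t : G) : IsSig σ (t * x * t⁻¹) := by
  intro r hr hd
  apply h r hr
  rwa [orderOf_conj'] at hd

theorem isSig_of_mk_eq {σ : Finset ℕ} (e : SClasses σ G) {x : G} (hx : ConjClasses.mk x = e.1) :
    IsSig σ x :=
  fun r hr hd => e.2 x (by rw [ConjClasses.mem_carrier_iff_mk_eq, hx]) r hr hd

/-- The class of a `σ`-element. -/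
def sigClass {σ : Finset ℕ} (x : G) (hx : IsSig σ x) : SClasses σ G :=
  ⟨ConjClasses.mk x, by
    intro y hy r hr hd
    rw [ConjClasses.mem_carrier_iff_mk_eq, ConjClasses.mk_eq_mk_iff_isConj] at hy
    rw [orderOf_of_isConj hy] at hd
    exact hx r hr hd⟩

theorem mk_conj (t x : G) : ConjClasses.mk (t * x * t⁻¹) = ConjClasses.mk x := by
  rw [ConjClasses.mk_eq_mk_iff_isConj, isConj_comm, isConj_iff]
  exact ⟨t, rfl⟩

theorem mk_mul_conj {c b : G} (a : G) (hc : c * b = b * c) :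
    ConjClasses.mk ((c⁻¹ * a * c) * b) = ConjClasses.mk (a * b) := by
  have h : (c⁻¹ * a * c) * b = c⁻¹ * (a * b) * c⁻¹⁻¹ := by
    rw [inv_inv]
    calc (c⁻¹ * a * c) * b = c⁻¹ * a * (c * b) := by group
      _ = c⁻¹ * a * (b * c) := by rw [hc]
      _ = c⁻¹ * (a * b) * c := by group
  rw [h, mk_conj]

theorem mem_repC_iff {c : ConjClasses G} {a : G} : a ∈ repC c ↔ a * rep c = rep c * a := by
  rw [Subgroup.mem_centralizer_iff]
  constructor
  · intro h
    exact (h (rep c) rfl).symm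
  · intro h z hz
    rw [Set.mem_singleton_iff.mp hz]
    exact h.symm

variable [Finite G]

/-- Every class of `(σ ∪ {s})`-elements comes from a class of `σ`-elements and an `s`-element
of the centralizer of its representative. -/
theorem exists_sigma_decomp (s : ℕ) [hs : Fact s.Prime] (σ : Finset ℕ)
    (d : SClasses (insert s σ) G) :
    ∃ (e : SClasses σ G) (a : G), a ∈ repC e.1 ∧ (∃ k : ℕ, a ^ s ^ k = 1) ∧
      ConjClasses.mk (a * rep e.1) = d.1 := by
  obtain ⟨x, hx⟩ := ConjClasses.exists_rep d.1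
  obtain ⟨u, v, hxuv, hc, -, hvx, ⟨k, hk⟩, hv⟩ := exists_pPart_decomp (p := s) x
  have hmem : x ∈ d.1.carrier := by
    rw [ConjClasses.mem_carrier_iff_mk_eq, hx]
  have hvs : IsSig σ v := by
    intro r hr hry
    have h1 : r ∣ orderOf x := hry.trans (orderOf_dvd_of_mem_zpowers hvx)
    have h2 := d.2 x hmem r hr h1
    rcases Finset.mem_insert.mp h2 with h3 | h3
    · exfalso
      subst h3
      have := Nat.dvd_gcd hry (dvd_refl r)
      rw [hv] at this
      exact hr.one_lt.ne' (Nat.dvd_one.mp this)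
    · exact h3
  let e : SClasses σ G := sigClass v hvs
  have hrep : IsConj v (rep e.1) := by
    rw [← ConjClasses.mk_eq_mk_iff_isConj, mk_rep]
    rfl
  obtain ⟨t, ht⟩ := isConj_iff.mp hrep
  refine ⟨e, t * u * t⁻¹, ?_, ⟨k, ?_⟩, ?_⟩
  · rw [mem_repC_iff, ← ht]
    have : u * v = v * u := hc
    calc t * u * t⁻¹ * (t * v * t⁻¹) = t * (u * v) * t⁻¹ := by group
      _ = t * (v * u) * t⁻¹ := by rw [this]
      _ = t * v * t⁻¹ * (t * u * t⁻¹) := by group
  · rw [conj_pow, hk]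
    group
  · rw [← ht, ← hx, hxuv]
    have : t * u * t⁻¹ * (t * v * t⁻¹) = t * (u * v) * t⁻¹ := by group
    rw [this, mk_conj]

theorem exists_conj_mem_of_isSylowIn {s : ℕ} [hs : Fact s.Prime] {Q K : Subgroup G}
    (h : IsSylowIn s Q K) {a : G} (ha : a ∈ K) (hsa : ∃ k : ℕ, a ^ s ^ k = 1) :
    ∃ c ∈ K, c⁻¹ * a * c ∈ Q := by
  obtain ⟨k, hk⟩ := hsa
  obtain ⟨j, -, hj⟩ := (Nat.dvd_prime_pow hs.out).mp (orderOf_dvd_of_pow_eq_one hk)
  have hT : IsPGroup s (zpowers (⟨a, ha⟩ : K)) := by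
    apply IsPGroup.of_card (n := j)
    rw [Nat.card_zpowers, Subgroup.orderOf_mk, hj]
  obtain ⟨c, hc⟩ := exists_conj_le (A := K) (zpowers (⟨a, ha⟩ : K)) (Q.subgroupOf K) hT h.2.2
  have h1 := hc ⟨a, ha⟩ (mem_zpowers _)
  exact ⟨c, c.2, by simpa [Subgroup.mem_subgroupOf] using h1⟩

theorem isSylowIn_of_le {s : ℕ} [hs : Fact s.Prime] (S : Sylow s G) {C : Subgroup G}
    (hSC : (S : Subgroup G) ≤ C) : IsSylowIn s (S : Subgroup G) C := by
  refine ⟨hSC, S.isPGroup', ?_⟩
  intro h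
  have h2 := relIndex_mul_index hSC
  exact S.not_dvd_index (h2 ▸ Dvd.dvd.mul_right h _)

theorem exists_isSylowIn (s : ℕ) [hs : Fact s.Prime] (K : Subgroup G) : ∃ Q, IsSylowIn s Q K := by
  obtain ⟨P⟩ : Nonempty (Sylow s K) := inferInstance
  exact ⟨_, isSylowIn_map P⟩

/-- A Sylow subgroup of a subgroup `K`, inside `G`. -/
noncomputable def Pe (s : ℕ) [hs : Fact s.Prime] (K : Subgroup G) : Subgroup G :=
  Classical.choose (exists_isSylowIn s K)

theorem Pe_spec (s : ℕ) [hs : Fact s.Prime] (K : Subgroup G) : IsSylowIn s (Pe s K) K :=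
  Classical.choose_spec (exists_isSylowIn s K)

theorem card_le_of_isPGroup {s : ℕ} [hs : Fact s.Prime] (S : Sylow s G) {T : Subgroup G}
    (hT : IsPGroup s T) : Nat.card T ≤ Nat.card (S : Subgroup G) := by
  obtain ⟨S', hS'⟩ := hT.exists_le_sylow
  have h1 : Nat.card (S' : Subgroup G) = Nat.card (S : Subgroup G) := by
    rw [Sylow.card_eq_multiplicity, Sylow.card_eq_multiplicity]
  rw [← h1]
  exact Subgroup.card_le_of_le hS'

/-- A proper subgroup of an `s`-group has index at least `s`. -/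
theorem card_mul_le_of_lt {s : ℕ} [hs : Fact s.Prime] {T U : Subgroup G} (hU : IsPGroup s U)
    (hTU : T ≤ U) (hne : T ≠ U) : s * Nat.card T ≤ Nat.card U := by
  obtain ⟨i, hi⟩ := hU.index (T.subgroupOf U)
  have h1 : T.relIndex U = s ^ i := hi
  have h2 := card_eq_card_mul_relIndex hTU
  rw [h2, h1, mul_comm]
  apply Nat.mul_le_mul_left
  rcases i with _ | i
  · exfalso
    rw [pow_zero] at h1
    have h3 : Nat.card U = Nat.card T := by rw [h2, h1, mul_one]
    exact hne (Subgroup.eq_of_le_of_card_ge hTU h3.le)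
  · calc s = s ^ 1 := (pow_one s).symm
      _ ≤ s ^ (i + 1) := Nat.pow_le_pow_right hs.out.pos (by omega)

/-- `k_{σ ∪ {s}}(G) ≤ k_σ(G) |G|_s`. -/
theorem card_insert_le (s : ℕ) [hs : Fact s.Prime] (σ : Finset ℕ) (S : Sylow s G) :
    Nat.card (SClasses (insert s σ) G) ≤ Nat.card (SClasses σ G) * Nat.card (S : Subgroup G) := by
  classical
  haveI := Fintype.ofFinite (SClasses σ G)
  have hsurj : ∀ d : SClasses (insert s σ) G,
      ∃ t : (Σ e : SClasses σ G, Pe s (repC e.1)), ConjClasses.mk ((t.2 : G) * rep t.1.1) = d.1 := by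
    intro d
    obtain ⟨e, a, ha, hsa, hd⟩ := exists_sigma_decomp s σ d
    obtain ⟨c, hc, hcQ⟩ := exists_conj_mem_of_isSylowIn (Pe_spec s (repC e.1)) ha hsa
    refine ⟨⟨e, ⟨_, hcQ⟩⟩, ?_⟩
    change ConjClasses.mk ((c⁻¹ * a * c) * rep e.1) = d.1
    rw [mk_mul_conj a (mem_repC_iff.mp hc), hd]
  choose f hf using hsurj
  have hinj : Function.Injective f := by
    intro d d' h
    apply Subtype.ext
    rw [← hf d, ← hf d', h]
  calc Nat.card (SClasses (insert s σ) G)
      ≤ Nat.card (Σ e : SClasses σ G, Pe s (repC e.1)) := Nat.card_le_card_of_injective f hinj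
    _ = ∑ e : SClasses σ G, Nat.card (Pe s (repC e.1)) := by rw [Nat.card_sigma]
    _ ≤ ∑ _e : SClasses σ G, Nat.card (S : Subgroup G) :=
        Finset.sum_le_sum (fun e _ => card_le_of_isPGroup S (Pe_spec s (repC e.1)).2.1)
    _ = Nat.card (SClasses σ G) * Nat.card (S : Subgroup G) := by
        rw [Finset.sum_const, Finset.card_univ, smul_eq_mul, Nat.card_eq_fintype_card (α := SClasses σ G)]

section E2

variable {s : ℕ} [hs : Fact s.Prime] (S : Sylow s G) (σ : Finset ℕ)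

/-- `N_G(S)`. -/
abbrev NS : Subgroup G := normalizer ((S : Subgroup G) : Set G)

/-- `C_G(S)`. -/
abbrev CS : Subgroup G := centralizer ((S : Subgroup G) : Set G)

/-- The `σ`-elements of `C_G(S)`. -/
def X₁ : Set G := {b | b ∈ CS S ∧ IsSig σ b}

theorem hA : ∀ g ∈ NS S, ∀ x ∈ ((S : Subgroup G) : Set G), g * x * g⁻¹ ∈ ((S : Subgroup G) : Set G) :=
  fun g hg x hx => (mem_normalizer_iff.mp hg x).mp hx

theorem hB : ∀ g ∈ NS S, ∀ x ∈ X₁ S σ, g * x * g⁻¹ ∈ X₁ S σ := by
  intro g hg b hb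
  refine ⟨?_, hb.2.conj g⟩
  rw [Subgroup.mem_centralizer_iff]
  intro z hz
  have h1 : g⁻¹ * z * g⁻¹⁻¹ ∈ ((S : Subgroup G) : Set G) := hA S g⁻¹ (inv_mem hg) z hz
  have h2 := Subgroup.mem_centralizer_iff.mp hb.1 _ h1
  rw [inv_inv] at h2
  calc z * (g * b * g⁻¹) = g * ((g⁻¹ * z * g) * b) * g⁻¹ := by group
    _ = g * (b * (g⁻¹ * z * g)) * g⁻¹ := by rw [h2]
    _ = g * b * g⁻¹ * z := by group

/-- `S`, acted on by conjugation by `N_G(S)`. -/
abbrev AA : Type u := InvSet (NS S) ((S : Subgroup G) : Set G) (hA S)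

/-- The `σ`-elements of `C_G(S)`, acted on by conjugation by `N_G(S)`. -/
abbrev BB : Type u := InvSet (NS S) (X₁ S σ) (hB S σ)

/-- `C_G(S)` in `N_G(S)`. -/
abbrev YY : Subgroup (NS S) := (CS S).subgroupOf (NS S)

/-- The class of a pair. -/
def Psi : orbitRel.Quotient (NS S) (AA S × BB S σ) → ConjClasses G :=
  Quotient.lift (fun p => ConjClasses.mk (p.1.val * p.2.val)) (by
    rintro a b ⟨n, hn⟩
    have h1 : a.1 = n • b.1 := (congrArg Prod.fst hn).symm
    have h2 : a.2 = n • b.2 := (congrArg Prod.snd hn).symm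
    rw [h1, h2, smul_val, smul_val]
    have : ((n : G) * b.1.val * (n : G)⁻¹) * ((n : G) * b.2.val * (n : G)⁻¹) =
        (n : G) * (b.1.val * b.2.val) * (n : G)⁻¹ := by group
    rw [this, mk_conj])

/-- The classes of `σ`-elements meeting `C_G(S)`. -/
def VV (e : SClasses σ G) : Prop := ∃ b ∈ CS S, ConjClasses.mk b = e.1

theorem orbits_M_le :
    Nat.card (orbitRel.Quotient (NS S) (BB S σ)) ≤ Nat.card {e : SClasses σ G // VV S σ e} := by
  let f : orbitRel.Quotient (NS S) (BB S σ) → {e : SClasses σ G // VV S σ e} :=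
    Quotient.lift (fun b => ⟨sigClass b.val b.mem.2, b.val, b.mem.1, rfl⟩) (by
      rintro a b ⟨n, hn⟩
      apply Subtype.ext
      apply Subtype.ext
      change ConjClasses.mk a.val = ConjClasses.mk b.val
      have h : a = n • b := hn.symm
      rw [h, smul_val]
      exact mk_conj _ _)
  apply Nat.card_le_card_of_injective f
  intro a b hab
  obtain ⟨a, rfl⟩ := Quotient.mk_surjective a
  obtain ⟨b, rfl⟩ := Quotient.mk_surjective b
  have h1 : ConjClasses.mk a.val = ConjClasses.mk b.val :=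
    congrArg (fun x : {e : SClasses σ G // VV S σ e} => x.1.1) hab
  rw [ConjClasses.mk_eq_mk_iff_isConj, isConj_iff] at h1
  obtain ⟨g, hg⟩ := h1
  -- `g a g⁻¹ = b`
  have hy : g * a.val * g⁻¹ ∈ CS S := hg ▸ b.mem.1
  have hy' : g⁻¹⁻¹ * a.val * g⁻¹ ∈ CS S := by rwa [inv_inv]
  obtain ⟨n, hn, hnn⟩ := S.conj_eq_normalizer_conj_of_mem_centralizer a.val g⁻¹ a.mem.1 hy'
  rw [inv_inv] at hnn
  symm
  apply orb_eq (⟨n⁻¹, inv_mem hn⟩ : NS S)
  apply InvSet.ext
  rw [smul_val]
  change n⁻¹ * a.val * n⁻¹⁻¹ = b.val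
  rw [inv_inv, ← hnn, hg]

theorem orbits_Y_le :
    Nat.card (orbitRel.Quotient (YY S) (BB S σ)) ≤ Nat.card (SClasses σ (CS S)) := by
  let g₀ : BB S σ → CS S := fun b => ⟨b.val, b.mem.1⟩
  have hg₀ : ∀ b : BB S σ, IsSig σ (g₀ b) := by
    intro b r hr hd
    apply b.mem.2 r hr
    rwa [Subgroup.orderOf_mk] at hd
  let f : orbitRel.Quotient (YY S) (BB S σ) → SClasses σ (CS S) :=
    Quotient.lift (fun b => sigClass (g₀ b) (hg₀ b)) (by
      rintro a b ⟨n, hn⟩
      apply Subtype.ext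
      change ConjClasses.mk (g₀ a) = ConjClasses.mk (g₀ b)
      have h : a = (n : NS S) • b := hn.symm
      have hn2 : ((n : NS S) : G) ∈ CS S := Subgroup.mem_subgroupOf.mp n.2
      have h3 : g₀ a = (⟨_, hn2⟩ : CS S) * g₀ b * (⟨_, hn2⟩ : CS S)⁻¹ := by
        apply Subtype.ext
        change a.val = _ * b.val * _⁻¹
        rw [h, smul_val]
      rw [h3, mk_conj])
  apply Nat.card_le_card_of_injective f
  intro a b hab
  obtain ⟨a, rfl⟩ := Quotient.mk_surjective a
  obtain ⟨b, rfl⟩ := Quotient.mk_surjective b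
  have h1 : ConjClasses.mk (g₀ a) = ConjClasses.mk (g₀ b) :=
    congrArg (fun x : SClasses σ (CS S) => x.1) hab
  rw [ConjClasses.mk_eq_mk_iff_isConj, isConj_iff] at h1
  obtain ⟨g, hg⟩ := h1
  have hgn : (g : G) ∈ NS S := (Subgroup.centralizer_le_normalizer _) g.2
  symm
  apply orb_eq (⟨⟨g, hgn⟩, Subgroup.mem_subgroupOf.mpr g.2⟩ : YY S)
  apply InvSet.ext
  have h2 := congrArg Subtype.val hg
  exact h2

theorem hY_fix : ∀ g ∈ YY S, ∀ a : AA S, g • a = a := by
  intro g hg a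
  apply InvSet.ext
  rw [smul_val]
  have h1 : (g : G) ∈ CS S := Subgroup.mem_subgroupOf.mp hg
  have h2 := Subgroup.mem_centralizer_iff.mp h1 a.val a.mem
  rw [← h2]
  group

theorem hY_nfix (g : NS S) (hg : g ∉ YY S) :
    s * Nat.card (fixedBy (AA S) g) ≤ Nat.card (AA S) := by
  let T : Subgroup G := (S : Subgroup G) ⊓ centralizer ({(g : G)} : Set G)
  have hT : T ≤ (S : Subgroup G) := inf_le_left
  have hne : T ≠ (S : Subgroup G) := by
    intro h
    apply hg
    rw [Subgroup.mem_subgroupOf, Subgroup.mem_centralizer_iff]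
    intro z hz
    have hz' : z ∈ T := h ▸ hz
    exact (Subgroup.mem_centralizer_iff.mp hz'.2 (g : G) rfl).symm
  have h1 : Nat.card (fixedBy (AA S) g) ≤ Nat.card T := by
    let f : fixedBy (AA S) g → T := fun x => ⟨x.1.val, Subgroup.mem_inf.mpr ⟨x.1.mem, by
      rw [Subgroup.mem_centralizer_iff]
      intro z hz
      rw [Set.mem_singleton_iff.mp hz]
      have h2 : g • x.1 = x.1 := x.2
      have h3 := congrArg InvSet.val h2
      rw [smul_val] at h3
      calc (g : G) * x.1.val = (g : G) * x.1.val * (g : G)⁻¹ * (g : G) := by group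
        _ = x.1.val * (g : G) := by rw [h3]⟩⟩
    apply Nat.card_le_card_of_injective f
    intro x y hxy
    apply Subtype.ext
    apply InvSet.ext
    exact congrArg (fun y : T => (y : G)) hxy
  calc s * Nat.card (fixedBy (AA S) g) ≤ s * Nat.card T := Nat.mul_le_mul_left _ h1
    _ ≤ Nat.card (S : Subgroup G) := card_mul_le_of_lt S.isPGroup' hT hne

/-- A Sylow subgroup of the centralizer of a representative of a class not meeting `C_G(S)`
is small. -/
theorem card_Pe_of_not_VV (e : SClasses σ G) (he : ¬ VV S σ e) :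
    s * Nat.card (Pe s (repC e.1)) ≤ Nat.card (S : Subgroup G) := by
  have hP := Pe_spec s (repC e.1)
  obtain ⟨S', hS'⟩ := hP.2.1.exists_le_sylow
  have h1 : Nat.card (S' : Subgroup G) = Nat.card (S : Subgroup G) := by
    rw [Sylow.card_eq_multiplicity, Sylow.card_eq_multiplicity]
  rw [← h1]
  apply card_mul_le_of_lt S'.isPGroup' hS'
  intro heq
  apply he
  obtain ⟨g, rfl⟩ := MulAction.exists_smul_eq G S S'
  refine ⟨g⁻¹ * rep e.1 * g⁻¹⁻¹, ?_, ?_⟩
  · rw [Subgroup.mem_centralizer_iff]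
    intro z hz
    have hz2 : g * z * g⁻¹ ∈ ((g • S : Sylow s G) : Subgroup G) := by
      refine (mem_smul_sylow_iff g _ S).mpr ?_
      have : g⁻¹ * (g * z * g⁻¹) * g = z := by group
      rw [this]
      exact hz
    have hz3 : g * z * g⁻¹ ∈ repC e.1 := hP.1 (heq ▸ hz2)
    have hz4 := mem_repC_iff.mp hz3
    rw [inv_inv]
    calc z * (g⁻¹ * rep e.1 * g) = g⁻¹ * ((g * z * g⁻¹) * rep e.1) * g := by group
      _ = g⁻¹ * (rep e.1 * (g * z * g⁻¹)) * g := by rw [hz4]
      _ = g⁻¹ * rep e.1 * g * z := by group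
  · rw [mk_conj, mk_rep]

/-- Every class of `(σ ∪ {s})`-elements: either a pair or a small piece. -/
theorem exists_decomp_E2 (d : SClasses (insert s σ) G) :
    (∃ o : orbitRel.Quotient (NS S) (AA S × BB S σ), Psi S σ o = d.1) ∨
      ∃ t : (Σ e : {e : SClasses σ G // ¬ VV S σ e}, Pe s (repC e.1.1)),
        ConjClasses.mk ((t.2 : G) * rep t.1.1.1) = d.1 := by
  obtain ⟨e, a, ha, hsa, hd⟩ := exists_sigma_decomp s σ d
  by_cases hV : VV S σ e
  · left
    obtain ⟨b, hb, hbe⟩ := hV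
    have h1 : IsConj (rep e.1) b := by
      rw [← ConjClasses.mk_eq_mk_iff_isConj, mk_rep, hbe]
    obtain ⟨t, ht⟩ := isConj_iff.mp h1
    have hSC : (S : Subgroup G) ≤ centralizer ({b} : Set G) := by
      intro z hz
      rw [Subgroup.mem_centralizer_iff]
      intro y hy
      rw [Set.mem_singleton_iff.mp hy]
      exact (Subgroup.mem_centralizer_iff.mp hb z hz).symm ▸ rfl
    have ha' : t * a * t⁻¹ ∈ centralizer ({b} : Set G) := by
      rw [Subgroup.mem_centralizer_iff]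
      intro y hy
      rw [Set.mem_singleton_iff.mp hy, ← ht]
      have h2 := mem_repC_iff.mp ha
      calc t * rep e.1 * t⁻¹ * (t * a * t⁻¹) = t * (rep e.1 * a) * t⁻¹ := by group
        _ = t * (a * rep e.1) * t⁻¹ := by rw [h2]
        _ = t * a * t⁻¹ * (t * rep e.1 * t⁻¹) := by group
    have hsa' : ∃ k : ℕ, (t * a * t⁻¹) ^ s ^ k = 1 := by
      obtain ⟨k, hk⟩ := hsa
      refine ⟨k, ?_⟩
      rw [conj_pow, hk]
      group
    obtain ⟨c, hc, hcS⟩ := exists_conj_mem_of_isSylowIn (isSylowIn_of_le S hSC) ha' hsa'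
    have hbs : IsSig σ b := isSig_of_mk_eq e hbe
    refine ⟨Quotient.mk'' (InvSet.mk _ hcS, InvSet.mk b ⟨hb, hbs⟩), ?_⟩
    change ConjClasses.mk ((c⁻¹ * (t * a * t⁻¹) * c) * b) = d.1
    have hcb : c * b = b * c := (Subgroup.mem_centralizer_iff.mp hc b rfl).symm
    rw [mk_mul_conj _ hcb, ← ht, ← hd]
    have h3 : t * a * t⁻¹ * (t * rep e.1 * t⁻¹) = t * (a * rep e.1) * t⁻¹ := by group
    rw [h3, mk_conj]
  · right
    obtain ⟨c, hc, hcQ⟩ := exists_conj_mem_of_isSylowIn (Pe_spec s (repC e.1)) ha hsa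
    refine ⟨⟨⟨e, hV⟩, ⟨_, hcQ⟩⟩, ?_⟩
    change ConjClasses.mk ((c⁻¹ * a * c) * rep e.1) = d.1
    rw [mk_mul_conj a (mem_repC_iff.mp hc), hd]

/-- The key count. -/
theorem count_E2 :
    s * Nat.card (NS S) * Nat.card (SClasses (insert s σ) G) ≤
      (s - 1) * Nat.card (S : Subgroup G) * Nat.card (CS S) * Nat.card (SClasses σ (CS S)) +
        Nat.card (S : Subgroup G) * Nat.card (NS S) * Nat.card (SClasses σ G) := by
  classical
  haveI := Fintype.ofFinite {e : SClasses σ G // ¬ VV S σ e}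
  have hs1 : 1 ≤ s := hs.out.one_le
  have hB := burnside_prod (M := NS S) (A := AA S) (B := BB S σ) (YY S) s hs1 (hY_fix S)
    (hY_nfix S)
  -- the injection
  let O := orbitRel.Quotient (NS S) (AA S × BB S σ)
  let W := (Σ e : {e : SClasses σ G // ¬ VV S σ e}, Pe s (repC e.1.1))
  let Ψ : O ⊕ W → ConjClasses G := fun t => match t with
    | Sum.inl o => Psi S σ o
    | Sum.inr t => ConjClasses.mk ((t.2 : G) * rep t.1.1.1)
  have hsurj : ∀ d : SClasses (insert s σ) G, ∃ t : O ⊕ W, Ψ t = d.1 := by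
    intro d
    rcases exists_decomp_E2 S σ d with ⟨o, ho⟩ | ⟨t, ht⟩
    · exact ⟨Sum.inl o, ho⟩
    · exact ⟨Sum.inr t, ht⟩
  choose f hf using hsurj
  have hinj : Function.Injective f := by
    intro d d' h
    apply Subtype.ext
    rw [← hf d, ← hf d', h]
  have h1 : Nat.card (SClasses (insert s σ) G) ≤ Nat.card O + Nat.card W := by
    rw [← Nat.card_sum]
    exact Nat.card_le_card_of_injective f hinj
  have h2 : s * Nat.card W ≤ Nat.card {e : SClasses σ G // ¬ VV S σ e} * Nat.card (S : Subgroup G) := by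
    have : Nat.card W = ∑ e : {e : SClasses σ G // ¬ VV S σ e}, Nat.card (Pe s (repC e.1.1)) := by
      rw [Nat.card_sigma]
    rw [this, Finset.mul_sum]
    calc ∑ e : {e : SClasses σ G // ¬ VV S σ e}, s * Nat.card (Pe s (repC e.1.1))
        ≤ ∑ _e : {e : SClasses σ G // ¬ VV S σ e}, Nat.card (S : Subgroup G) :=
          Finset.sum_le_sum (fun e _ => card_Pe_of_not_VV S σ e.1 e.2)
      _ = _ := by
          rw [Finset.sum_const, Finset.card_univ, smul_eq_mul,
            Nat.card_eq_fintype_card (α := {e : SClasses σ G // ¬ VV S σ e})]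
  have h3 := orbits_M_le S σ
  have h4 := orbits_Y_le S σ
  have h5 : Nat.card {e : SClasses σ G // VV S σ e} + Nat.card {e : SClasses σ G // ¬ VV S σ e} =
      Nat.card (SClasses σ G) := by
    rw [← Nat.card_sum]
    exact Nat.card_congr (Equiv.sumCompl _)
  have h6 : Nat.card (YY S) = Nat.card (CS S) :=
    Nat.card_congr (Subgroup.subgroupOfEquivOfLe (Subgroup.centralizer_le_normalizer _)).toEquiv
  have h7 : Nat.card (AA S) = Nat.card (S : Subgroup G) := rfl
  rw [h6, h7] at hB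
  set kk := Nat.card (SClasses (insert s σ) G)
  set o := Nat.card O
  set w := Nat.card W
  set nm := Nat.card (NS S)
  set a := Nat.card (S : Subgroup G)
  set y := Nat.card (CS S)
  set v := Nat.card {e : SClasses σ G // VV S σ e}
  set vc := Nat.card {e : SClasses σ G // ¬ VV S σ e}
  set o1 := Nat.card (orbitRel.Quotient (NS S) (BB S σ))
  set o2 := Nat.card (orbitRel.Quotient (YY S) (BB S σ))
  set κ := Nat.card (SClasses σ (CS S))
  rw [← h5]
  calc s * nm * kk ≤ s * nm * (o + w) := Nat.mul_le_mul_left _ h1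
    _ = s * (o * nm) + nm * (s * w) := by ring
    _ ≤ ((s - 1) * a * (o2 * y) + a * (o1 * nm)) + nm * (vc * a) :=
        Nat.add_le_add hB (Nat.mul_le_mul_left _ h2)
    _ ≤ ((s - 1) * a * (κ * y) + a * (v * nm)) + nm * (vc * a) := by
        gcongr
    _ = _ := by ring

end E2

end Cfsg.Agent.Lib.PiClass.Count
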