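import Cfsg.Agent.Lib.PiClass.Count
import Cfsg.Agent.Lib.FG7.ClassNumber

/-!
# Class numbers of `p`-groups

* `class_eq_bound`: `p k(A) ≤ |A| + (p - 1) |Z(A)|`.
* `cube_mul_card_conjClasses_le`: `p³ k(A) ≤ |A| (p² + p - 1)` if `A` is not abelian.
* `mul_card_conjClasses_le_of_large`: `p k(A) ≤ |A|` if some class has more than `p` elements.
-/

set_option autoImplicit false
set_option linter.unusedSectionVars false
set_option linter.style.haveILetI false
set_option linter.style.longLine false

namespace Cfsg.Agent.Lib.PiClass.PGroup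

open Subgroup
open Cfsg.Agent.Lib.PiClass.Count
open Cfsg.Agent.Lib.Coprime.Action

universe u

variable {A : Type u} [Group A] [Finite A] {p : ℕ} [hp : Fact p.Prime]

theorem mem_center_of_index_eq_one {u : A} (h : (centralizer ({u} : Set A)).index = 1) :
    u ∈ center A := by
  rw [Subgroup.index_eq_one] at h
  rw [Subgroup.mem_center_iff]
  intro g
  have hg : g ∈ centralizer ({u} : Set A) := h ▸ Subgroup.mem_top g
  exact (Subgroup.mem_centralizer_iff.mp hg u rfl).symm

theorem index_eq_one_of_mem_center {u : A} (h : u ∈ center A) :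
    (centralizer ({u} : Set A)).index = 1 := by
  rw [Subgroup.index_eq_one, eq_top_iff]
  intro g _
  rw [Subgroup.mem_centralizer_iff]
  intro z hz
  rw [Set.mem_singleton_iff.mp hz]
  exact (Subgroup.mem_center_iff.mp h g).symm

theorem card_centralizer_of_mem_center {u : A} (h : u ∈ center A) :
    Nat.card (centralizer ({u} : Set A)) = Nat.card A := by
  have h1 := (centralizer ({u} : Set A)).card_mul_index
  rwa [index_eq_one_of_mem_center h, mul_one] at h1

/-- The class equation bound. -/
theorem class_eq_bound (hA : IsPGroup p A) :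
    p * Nat.card (ConjClasses A) ≤ Nat.card A + (p - 1) * Nat.card (center A) := by
  classical
  haveI := Fintype.ofFinite A
  obtain ⟨m, hm⟩ : ∃ m, p = m + 1 := ⟨p - 1, by have := hp.out.pos; omega⟩
  have hfix : ∀ x : A, p * Nat.card (centralizer ({x} : Set A)) ≤
      Nat.card A * (1 + if x ∈ center A then m else 0) := by
    intro x
    by_cases hx : x ∈ center A
    · simp only [hx, if_true]
      rw [card_centralizer_of_mem_center hx, mul_comm, hm]
      exact le_of_eq (by ring)
    · simp only [hx, if_false, add_zero, mul_one]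
      obtain ⟨i, hi⟩ := hA.index (centralizer ({x} : Set A))
      have hi0 : i ≠ 0 := by
        rintro rfl
        exact hx (mem_center_of_index_eq_one (by rw [hi, pow_zero]))
      rw [← (centralizer ({x} : Set A)).card_mul_index, hi, mul_comm]
      apply Nat.mul_le_mul_left
      calc p = p ^ 1 := (pow_one _).symm
        _ ≤ p ^ i := Nat.pow_le_pow_right hp.out.pos (Nat.pos_of_ne_zero hi0)
  have hsum := Finset.sum_le_sum (s := Finset.univ) (fun x _ => hfix x)
  rw [← Finset.mul_sum, ← Finset.mul_sum, Cfsg.Agent.Lib.FG7.ClassNumber.sum_card_centralizer,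
    Finset.sum_add_distrib, Finset.sum_ite, Finset.sum_const_zero, add_zero, Finset.sum_const,
    Finset.sum_const, smul_eq_mul, smul_eq_mul, mul_one, Finset.card_univ] at hsum
  have hcZ : (Finset.univ.filter (fun x => x ∈ center A)).card = Nat.card (center A) := by
    rw [Nat.card_eq_fintype_card, Fintype.card_subtype]
  rw [hcZ, ← Nat.card_eq_fintype_card (α := A)] at hsum
  have hpos : 0 < Nat.card A := Nat.card_pos
  apply Nat.le_of_mul_le_mul_right _ hpos
  have hm' : p - 1 = m := by omega
  rw [hm']
  calc p * Nat.card (ConjClasses A) * Nat.card A = p * (Nat.card (ConjClasses A) * Nat.card A) := by ring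
    _ ≤ Nat.card A * (Nat.card A + Nat.card (center A) * m) := hsum
    _ = (Nat.card A + m * Nat.card (center A)) * Nat.card A := by ring

/-- The centre of a non-abelian `p`-group has index at least `p²`. -/
theorem sq_mul_card_center_le (hA : IsPGroup p A) (hna : ¬ IsMulCommutative A) :
    p ^ 2 * Nat.card (center A) ≤ Nat.card A := by
  have hZtop : center A ≠ ⊤ := by
    intro h
    apply hna
    refine ⟨⟨fun a b => ?_⟩⟩
    have : a ∈ center A := h ▸ Subgroup.mem_top a
    exact Subgroup.mem_center_iff.mp this b |>.symm
  obtain ⟨j, hj⟩ := hA.index (center A)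
  have hj2 : 2 ≤ j := by
    rcases j with _ | _ | j
    · rw [pow_zero, Subgroup.index_eq_one] at hj
      exact absurd hj hZtop
    · exfalso
      rw [zero_add, pow_one] at hj
      have hcard : Nat.card (A ⧸ center A) = p := hj
      haveI : Fact (Nat.card (A ⧸ center A)).Prime := ⟨hcard ▸ hp.out⟩
      haveI : IsCyclic (A ⧸ center A) := isCyclic_of_prime_card rfl
      exact hna (MonoidHom.isMulCommutative_of_isCyclic_of_ker_le_center
        (QuotientGroup.mk' (center A)) (by rw [QuotientGroup.ker_mk']))
    · omega
  rw [← (center A).card_mul_index, hj, mul_comm]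
  apply Nat.mul_le_mul_left
  exact Nat.pow_le_pow_right hp.out.pos hj2

/-- `p³ k(A) ≤ |A| (p² + p - 1)` for a non-abelian `p`-group. -/
theorem cube_mul_card_conjClasses_le (hA : IsPGroup p A) (hna : ¬ IsMulCommutative A) :
    p ^ 3 * Nat.card (ConjClasses A) ≤ Nat.card A * (p ^ 2 + p - 1) := by
  have h1 := class_eq_bound hA
  have h2 := sq_mul_card_center_le hA hna
  obtain ⟨m, rfl⟩ : ∃ m, p = m + 1 := ⟨p - 1, by have := hp.out.pos; omega⟩
  simp only [Nat.add_sub_cancel] at h1
  have h3 : (m + 1) ^ 2 + (m + 1) - 1 = (m + 1) ^ 2 + m := by omega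
  rw [h3]
  calc (m + 1) ^ 3 * Nat.card (ConjClasses A)
      = (m + 1) ^ 2 * ((m + 1) * Nat.card (ConjClasses A)) := by ring
    _ ≤ (m + 1) ^ 2 * (Nat.card A + m * Nat.card (center A)) := Nat.mul_le_mul_left _ h1
    _ = (m + 1) ^ 2 * Nat.card A + m * ((m + 1) ^ 2 * Nat.card (center A)) := by ring
    _ ≤ (m + 1) ^ 2 * Nat.card A + m * Nat.card A := by gcongr
    _ = _ := by ring

/-- If `w` and `w u` have centralizers of index at most `p` and the centralizer of `u` has index
at least `p²`, then `w` commutes with `u`. -/
theorem commute_of_small (hA : IsPGroup p A) {u w : A}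
    (h1 : (centralizer ({u} : Set A)).index ≠ 1) (h2 : (centralizer ({u} : Set A)).index ≠ p)
    (hw : (centralizer ({w} : Set A)).index = 1 ∨ (centralizer ({w} : Set A)).index = p)
    (hwu : (centralizer ({w * u} : Set A)).index = 1 ∨ (centralizer ({w * u} : Set A)).index = p) :
    w * u = u * w := by
  classical
  set C := centralizer ({u} : Set A) with hC
  set D := centralizer ({w} : Set A) ⊓ centralizer ({w * u} : Set A) with hD
  have hDC : D ≤ C := by
    intro x hx
    have hx1 : x * w = w * x :=
      (Subgroup.mem_centralizer_iff.mp (Subgroup.mem_inf.mp hx).1 w rfl).symm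
    have hx2 : x * (w * u) = (w * u) * x :=
      (Subgroup.mem_centralizer_iff.mp (Subgroup.mem_inf.mp hx).2 (w * u) rfl).symm
    rw [hC, Subgroup.mem_centralizer_iff]
    intro z hz
    rw [Set.mem_singleton_iff.mp hz]
    have h3 : w * (x * u) = w * (u * x) := by
      calc w * (x * u) = (w * x) * u := by group
        _ = (x * w) * u := by rw [hx1]
        _ = x * (w * u) := by group
        _ = (w * u) * x := hx2
        _ = w * (u * x) := by group
    exact (mul_left_cancel h3).symm
  have hDi : D.index ≤ p ^ 2 := by
    have h3 : D.index ≤ (centralizer ({w} : Set A)).index * (centralizer ({w * u} : Set A)).index :=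
      Subgroup.index_inf_le
    have h4 : (centralizer ({w} : Set A)).index ≤ p := by
      rcases hw with h | h <;> rw [h]
      exact hp.out.one_le
    have h5 : (centralizer ({w * u} : Set A)).index ≤ p := by
      rcases hwu with h | h <;> rw [h]
      exact hp.out.one_le
    rw [sq]
    exact h3.trans (Nat.mul_le_mul h4 h5)
  obtain ⟨i, hi⟩ := hA.index C
  have hi2 : 2 ≤ i := by
    rcases i with _ | _ | i
    · exact absurd (by rw [hi, pow_zero]) h1
    · exact absurd (by rw [hi, zero_add, pow_one]) h2
    · omega
  have hCi : p ^ 2 ≤ C.index := by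
    rw [hi]
    exact Nat.pow_le_pow_right hp.out.pos hi2
  have hCD : C.index ∣ D.index := Subgroup.index_dvd_of_le hDC
  have hDpos : 0 < D.index := Nat.pos_of_ne_zero Subgroup.index_ne_zero_of_finite
  have hle := Nat.le_of_dvd hDpos hCD
  have heq : C.index = D.index := by omega
  have hcard : Nat.card D = Nat.card C := by
    have h6 := D.card_mul_index
    have h7 := C.card_mul_index
    rw [← heq] at h6
    exact Nat.eq_of_mul_eq_mul_right (Nat.pos_of_ne_zero Subgroup.index_ne_zero_of_finite) (h6.trans h7.symm)
  have hDCeq : D = C := Subgroup.eq_of_le_of_card_ge hDC hcard.ge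
  have huC : u ∈ C := by
    rw [hC, Subgroup.mem_centralizer_iff]
    intro z hz
    rw [Set.mem_singleton_iff.mp hz]
  have huD : u ∈ D := hDCeq ▸ huC
  exact (Subgroup.mem_centralizer_iff.mp (Subgroup.mem_inf.mp huD).1 w rfl).symm ▸ rfl

/-- If some class of the `p`-group `A` has more than `p` elements then `p k(A) ≤ |A|`. -/
theorem mul_card_conjClasses_le_of_large (hA : IsPGroup p A) (u : A)
    (h1 : (centralizer ({u} : Set A)).index ≠ 1) (h2 : (centralizer ({u} : Set A)).index ≠ p) :
    p * Nat.card (ConjClasses A) ≤ Nat.card A := by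
  classical
  haveI := Fintype.ofFinite A
  -- the elements with a large class
  let P : A → Prop := fun x => (centralizer ({x} : Set A)).index ≠ 1 ∧ (centralizer ({x} : Set A)).index ≠ p
  let R : Finset A := Finset.univ.filter P
  set C := centralizer ({u} : Set A) with hC
  have huC : u ∈ C := by
    rw [hC, Subgroup.mem_centralizer_iff]
    intro z hz
    rw [Set.mem_singleton_iff.mp hz]
  have huZ : u ∉ center A := fun h => h1 (index_eq_one_of_mem_center h)
  -- `|A| ≤ |C| + 2 |R|`
  have hcov : (Finset.univ.filter (fun w => w ∉ C)) ⊆ R ∪ R.image (fun x => x * u⁻¹) := by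
    intro w hw
    have hw' : w ∉ C := (Finset.mem_filter.mp hw).2
    by_contra hcon
    rw [Finset.mem_union, not_or] at hcon
    have h3 : ¬ P w := fun h => hcon.1 (Finset.mem_filter.mpr ⟨Finset.mem_univ _, h⟩)
    have h4 : ¬ P (w * u) := fun h => hcon.2 (Finset.mem_image.mpr
      ⟨w * u, Finset.mem_filter.mpr ⟨Finset.mem_univ _, h⟩, by group⟩)
    have h5 : (centralizer ({w} : Set A)).index = 1 ∨ (centralizer ({w} : Set A)).index = p := by
      by_contra h
      push Not at h
      exact h3 h
    have h6 : (centralizer ({w * u} : Set A)).index = 1 ∨ (centralizer ({w * u} : Set A)).index = p := by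
      by_contra h
      push Not at h
      exact h4 h
    have h7 := commute_of_small hA h1 h2 h5 h6
    apply hw'
    rw [hC, Subgroup.mem_centralizer_iff]
    intro z hz
    rw [Set.mem_singleton_iff.mp hz]
    exact h7.symm
  have hcard1 : (Finset.univ.filter (fun w => w ∉ C)).card + Nat.card C = Nat.card A := by
    have h3 : Nat.card C = (Finset.univ.filter (fun w => w ∈ C)).card := by
      rw [Nat.card_eq_fintype_card, Fintype.card_subtype]
    rw [h3, add_comm, Finset.card_filter_add_card_filter_not, Nat.card_eq_fintype_card, Finset.card_univ]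
  have hcard2 : (Finset.univ.filter (fun w => w ∉ C)).card ≤ R.card + R.card := by
    refine (Finset.card_le_card hcov).trans ((Finset.card_union_le _ _).trans ?_)
    exact Nat.add_le_add_left Finset.card_image_le _
  -- `p |Z| ≤ |C|`
  have hZC : center A ≤ C := by
    intro x hx
    rw [hC, Subgroup.mem_centralizer_iff]
    intro z hz
    rw [Set.mem_singleton_iff.mp hz]
    exact (Subgroup.mem_center_iff.mp hx u)
  have hZne : center A ≠ C := fun h => huZ (h ▸ huC)
  have hpZ : p * Nat.card (center A) ≤ Nat.card C :=
    card_mul_le_of_lt (hA.to_subgroup C) hZC hZne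
  -- `p² |C| ≤ |A|`
  obtain ⟨i, hi⟩ := hA.index C
  have hi2 : 2 ≤ i := by
    rcases i with _ | _ | i
    · exact absurd (by rw [hi, pow_zero]) h1
    · exact absurd (by rw [hi, zero_add, pow_one]) h2
    · omega
  have hpC : p ^ 2 * Nat.card C ≤ Nat.card A := by
    rw [← C.card_mul_index, hi, mul_comm]
    apply Nat.mul_le_mul_left
    exact Nat.pow_le_pow_right hp.out.pos hi2
  have hp2 : 2 ≤ p := hp.out.two_le
  have hRZ : p * Nat.card (center A) ≤ R.card := by
    have h4 : 4 * Nat.card C ≤ p ^ 2 * Nat.card C := by
      apply Nat.mul_le_mul_right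
      nlinarith
    omega
  -- the count
  have hfix : ∀ x : A, p ^ 2 * Nat.card (centralizer ({x} : Set A)) ≤
      Nat.card A * (1 + (if P x then 0 else (p - 1)) + (if x ∈ center A then p * (p - 1) else 0)) := by
    intro x
    obtain ⟨m, hm⟩ : ∃ m, p = m + 1 := ⟨p - 1, by omega⟩
    have hm' : p - 1 = m := by omega
    rw [hm']
    by_cases hx : x ∈ center A
    · have hPx : ¬ P x := fun h => h.1 (index_eq_one_of_mem_center hx)
      rw [if_neg hPx, if_pos hx, card_centralizer_of_mem_center hx, mul_comm]
      apply Nat.mul_le_mul_left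
      rw [hm]
      nlinarith
    · rw [if_neg hx, add_zero]
      by_cases hPx : P x
      · rw [if_pos hPx, add_zero, mul_one]
        obtain ⟨j, hj⟩ := hA.index (centralizer ({x} : Set A))
        have hj2 : 2 ≤ j := by
          rcases j with _ | _ | j
          · exact absurd (by rw [hj, pow_zero]) hPx.1
          · exact absurd (by rw [hj, zero_add, pow_one]) hPx.2
          · omega
        rw [← (centralizer ({x} : Set A)).card_mul_index, hj, mul_comm]
        apply Nat.mul_le_mul_left
        exact Nat.pow_le_pow_right hp.out.pos hj2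
      · rw [if_neg hPx]
        have h5 : (centralizer ({x} : Set A)).index = p := by
          by_contra h
          exact hPx ⟨fun h' => hx (mem_center_of_index_eq_one h'), h⟩
        rw [← (centralizer ({x} : Set A)).card_mul_index, h5]
        apply le_of_eq
        rw [hm]
        ring
  have hsum := Finset.sum_le_sum (s := Finset.univ) (fun x _ => hfix x)
  rw [← Finset.mul_sum, ← Finset.mul_sum, Cfsg.Agent.Lib.FG7.ClassNumber.sum_card_centralizer,
    Finset.sum_add_distrib, Finset.sum_add_distrib, Finset.sum_ite, Finset.sum_ite,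
    Finset.sum_const_zero, Finset.sum_const_zero, add_zero, zero_add, Finset.sum_const,
    Finset.sum_const, Finset.sum_const, smul_eq_mul, smul_eq_mul, smul_eq_mul, mul_one, Finset.card_univ] at hsum
  have hcZ : (Finset.univ.filter (fun x => x ∈ center A)).card = Nat.card (center A) := by
    rw [Nat.card_eq_fintype_card, Fintype.card_subtype]
  have hcR : (Finset.univ.filter (fun x => ¬ P x)).card + R.card = Nat.card A := by
    rw [add_comm, Finset.card_filter_add_card_filter_not, Nat.card_eq_fintype_card, Finset.card_univ]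
  rw [hcZ, ← Nat.card_eq_fintype_card (α := A)] at hsum
  have hpos : 0 < Nat.card A := Nat.card_pos
  have hppos : 0 < p := hp.out.pos
  set nc := (Finset.univ.filter (fun x => ¬ P x)).card
  set N := Nat.card A
  set z := Nat.card (center A)
  set r := R.card
  set k := Nat.card (ConjClasses A)
  have h8 : p ^ 2 * k ≤ N + nc * (p - 1) + z * (p * (p - 1)) := by
    apply Nat.le_of_mul_le_mul_right _ hpos
    calc p ^ 2 * k * N = p ^ 2 * (k * N) := by ring
      _ ≤ _ := hsum
      _ = _ := by ring
  obtain ⟨m, hm⟩ : ∃ m, p = m + 1 := ⟨p - 1, by omega⟩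
  have hm' : p - 1 = m := by omega
  rw [hm'] at h8
  apply Nat.le_of_mul_le_mul_left _ hppos
  calc p * (p * k) = p ^ 2 * k := by ring
    _ ≤ N + nc * m + z * (p * m) := h8
    _ = N + nc * m + (p * z) * m := by ring
    _ ≤ N + nc * m + r * m := by gcongr
    _ = N + (nc + r) * m := by ring
    _ = N + N * m := by rw [hcR]
    _ = p * N := by rw [hm]; ring

end Cfsg.Agent.Lib.PiClass.PGroup
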