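import Cfsg.Agent.Lib.PiClass.Main
import Cfsg.Agent.Lib.PiClass.PGroup
import Cfsg.Agent.Lib.SqfClass.Knoche

/-!
# Many classes of `π`-elements: the structure of the Hall subgroup
-/

set_option autoImplicit false
set_option linter.unusedSectionVars false
set_option linter.style.haveILetI false
set_option linter.style.longLine false

namespace Cfsg.Agent.Lib.PiClass.Final

open Subgroup MulAction
open Cfsg.Agent.Lib.PiClass.Count Cfsg.Agent.Lib.PiClass.Main Cfsg.Agent.Lib.PiClass.PGroup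
open Cfsg.Agent.Lib.Transfer.ClassCount Cfsg.Agent.Lib.Transfer.PiClasses

universe u

/-- A nilpotent group all of whose Sylow subgroups are abelian is abelian. -/
theorem isMulCommutative_of_sylow {W : Type u} [Group W] [Finite W] [Group.IsNilpotent W]
    (h : ∀ (q : ℕ) [Fact q.Prime] (P : Sylow q W), ∀ x ∈ (P : Subgroup W), ∀ y ∈ (P : Subgroup W),
      x * y = y * x) : IsMulCommutative W := by
  let e := Sylow.directProductOfNormal (G := W) (fun {p hp P} => inferInstance)
  refine ⟨⟨fun a b => ?_⟩⟩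
  apply e.symm.injective
  rw [map_mul, map_mul]
  funext q P
  apply Subtype.ext
  haveI : Fact (q : ℕ).Prime := ⟨Nat.prime_of_mem_primeFactors q.2⟩
  exact h q P _ (e.symm a q P).2 _ (e.symm b q P).2

/-- A nilpotent group all of whose Sylow subgroups are abelian modulo `D` has derived subgroup in `D`. -/
theorem commutator_le_of_sylow {A : Type u} [Group A] [Finite A] [Group.IsNilpotent A]
    (D : Subgroup A) [D.Normal]
    (h : ∀ (q : ℕ) [Fact q.Prime] (P : Sylow q A), ∀ x ∈ (P : Subgroup A), ∀ y ∈ (P : Subgroup A),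
      x * y * x⁻¹ * y⁻¹ ∈ D) : commutator A ≤ D := by
  rw [← Subgroup.Normal.quotient_commutative_iff_commutator_le]
  have hf : Function.Surjective (QuotientGroup.mk' D) := QuotientGroup.mk'_surjective D
  haveI : Group.IsNilpotent (A ⧸ D) := Group.nilpotent_of_surjective (QuotientGroup.mk' D) hf
  apply isMulCommutative_of_sylow
  intro q _ P x hx y hy
  obtain ⟨T, rfl⟩ := Sylow.mapSurjective_surjective hf q P
  rw [Sylow.coe_mapSurjective] at hx hy
  obtain ⟨x', hx', rfl⟩ := hx
  obtain ⟨y', hy', rfl⟩ := hy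
  have h1 := h q T x' hx' y' hy'
  have h2 : QuotientGroup.mk' D (x' * y' * x'⁻¹ * y'⁻¹) = 1 := (QuotientGroup.eq_one_iff _).mpr h1
  simp only [map_mul, map_inv] at h2
  rw [mul_inv_eq_one, mul_inv_eq_iff_eq_mul] at h2
  exact h2

section final

variable {G : Type u} [Group G] [Finite G]

theorem card_lt_of_hyp {F : Finset ℕ} {q c d : ℕ} [hq : Fact q.Prime] (hF : ∀ r ∈ F, r.Prime)
    (hqF : q ∈ F) (P : Sylow q G) (hyp : mm F G * c < d * Nat.card (SClasses F G)) :
    Nat.card (P : Subgroup G) * c < d * Nat.card (ConjClasses (P : Subgroup G)) := by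
  have h1 := card_sClasses_le_mul F hF q hqF (G := G)
  have h2 := card_pClasses_le_card_conjClasses P
  rw [mm_eq_mul hqF P] at hyp
  have hF' : ∀ r ∈ F.erase q, r.Prime := fun r hr => hF r (Finset.mem_of_mem_erase hr)
  have hw : 0 < mm (F.erase q) G := mm_pos _ hF'
  set w := mm (F.erase q) G
  apply Nat.lt_of_mul_lt_mul_right (a := w)
  calc Nat.card (P : Subgroup G) * c * w = Nat.card (P : Subgroup G) * w * c := by ring
    _ < d * Nat.card (SClasses F G) := hyp
    _ ≤ d * (Nat.card (ConjClasses (P : Subgroup G)) * w) := by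
        apply Nat.mul_le_mul_left
        exact h1.trans (Nat.mul_le_mul_right _ h2)
    _ = _ := by ring

theorem abelian_of_lt {p q : ℕ} [hq : Fact q.Prime] (hpq : p < q) (P : Sylow q G)
    (h : Nat.card (P : Subgroup G) * 1 < p * Nat.card (ConjClasses (P : Subgroup G))) :
    IsMulCommutative (P : Subgroup G) := by
  by_contra hna
  have h1 := cube_mul_card_conjClasses_le P.isPGroup' hna
  obtain ⟨n, rfl⟩ : ∃ n, q = n + 1 := ⟨q - 1, by omega⟩
  have h3 : (n + 1) ^ 2 + (n + 1) - 1 = (n + 1) ^ 2 + n := by omega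
  rw [h3] at h1
  rw [mul_one] at h
  set N := Nat.card (P : Subgroup G)
  set k := Nat.card (ConjClasses (P : Subgroup G))
  have hk : 0 < k := Nat.card_pos
  have h4 : N ≤ n * k := by
    have h5 : p * k ≤ n * k := Nat.mul_le_mul_right _ (by omega)
    omega
  have h6 : (n + 1) ^ 3 * k ≤ (n * k) * ((n + 1) ^ 2 + n) :=
    h1.trans (Nat.mul_le_mul_right _ h4)
  have h7 : (n * k) * ((n + 1) ^ 2 + n) < (n + 1) ^ 3 * k := by
    have h8 : n * ((n + 1) ^ 2 + n) < (n + 1) ^ 3 := by nlinarith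
    calc (n * k) * ((n + 1) ^ 2 + n) = (n * ((n + 1) ^ 2 + n)) * k := by ring
      _ < (n + 1) ^ 3 * k := Nat.mul_lt_mul_of_pos_right h8 hk
  omega

theorem derived_le_of_lt {p : ℕ} [hp : Fact p.Prime] (P : Sylow p G)
    (h : Nat.card (P : Subgroup G) * 1 < p * Nat.card (ConjClasses (P : Subgroup G))) :
    Nat.card (commutator (P : Subgroup G)) ≤ p := by
  have hidx : ∀ u : (P : Subgroup G), (centralizer ({u} : Set (P : Subgroup G))).index = 1 ∨
      (centralizer ({u} : Set (P : Subgroup G))).index = p := by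
    intro u
    by_contra hcon
    push Not at hcon
    have h1 := mul_card_conjClasses_le_of_large P.isPGroup' u hcon.1 hcon.2
    omega
  rcases Cfsg.Agent.Lib.SqfClass.Knoche.card_commutator_of_index P.isPGroup' hidx with h1 | h1
  · rw [h1]
    exact hp.out.one_le
  · exact h1.le

/-- The Sylow subgroups of a subgroup commute if those of `G` do. -/
theorem sylow_commute_of_subgroup (H : Subgroup G) {q : ℕ} [hq : Fact q.Prime]
    (hab : ∀ P : Sylow q G, ∀ x ∈ (P : Subgroup G), ∀ y ∈ (P : Subgroup G), x * y = y * x)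
    (T : Sylow q H) {x y : H} (hx : x ∈ (T : Subgroup H)) (hy : y ∈ (T : Subgroup H)) :
    x * y = y * x := by
  have hT : IsPGroup q ((T : Subgroup H).map H.subtype) := T.isPGroup'.map _
  obtain ⟨P, hP⟩ := hT.exists_le_sylow
  have h1 := hab P _ (hP ⟨x, hx, rfl⟩) _ (hP ⟨y, hy, rfl⟩)
  exact Subtype.ext h1

/-- A prime not dividing the order. -/
theorem sylow_eq_one_of_not_dvd {A : Type u} [Group A] [Finite A] {q : ℕ} [hq : Fact q.Prime]
    (hd : ¬ q ∣ Nat.card A) (T : Sylow q A) {x : A} (hx : x ∈ (T : Subgroup A)) : x = 1 := by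
  have h2 : Nat.card (T : Subgroup A) = 1 := by
    rw [Sylow.card_eq_multiplicity, Nat.factorization_eq_zero_of_not_dvd hd, pow_zero]
  have h3 : (T : Subgroup A) = ⊥ := Subgroup.eq_bot_of_card_eq _ h2
  rw [h3] at hx
  exact Subgroup.mem_bot.mp hx

/-- The translation between `π` and a finite set of primes. -/
theorem exists_finset (π : Set ℕ) (hπ : ∀ q ∈ π, q.Prime)
    (m : ℕ) (hm : m ∣ Nat.card G) (hmπ : ∀ q : ℕ, q.Prime → q ∣ m → q ∈ π)
    (hm' : ∀ q ∈ π, ¬ q ∣ Nat.card G / m)
    (k : ℕ) (hk : k = Nat.card {C : ConjClasses G // ∀ q : ℕ, q.Prime → (∃ g : G, ConjClasses.mk g = C ∧ q ∣ orderOf g) → q ∈ π}) :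
    ∃ F : Finset ℕ, (∀ r ∈ F, r.Prime) ∧ (∀ r ∈ F, r ∈ π) ∧ (∀ r ∈ π, r ∣ Nat.card G → r ∈ F) ∧
      m = mm F G ∧ k = Nat.card (SClasses F G) := by
  classical
  let F : Finset ℕ := (Nat.card G).primeFactors.filter (· ∈ π)
  have hF1 : ∀ r, r ∈ F ↔ r.Prime ∧ r ∣ Nat.card G ∧ r ∈ π := by
    intro r
    simp only [F, Finset.mem_filter, Nat.mem_primeFactors]
    constructor
    · rintro ⟨⟨h1, h2, -⟩, h3⟩
      exact ⟨h1, h2, h3⟩
    · rintro ⟨h1, h2, h3⟩
      exact ⟨⟨h1, h2, Nat.card_pos.ne'⟩, h3⟩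
  obtain ⟨c, hc⟩ := hm
  have hm0 : m ≠ 0 := by
    rintro rfl
    rw [zero_mul] at hc
    exact Nat.card_pos.ne' hc
  have hc0 : c ≠ 0 := by
    rintro rfl
    rw [mul_zero] at hc
    exact Nat.card_pos.ne' hc
  have hdiv : Nat.card G / m = c := by
    rw [hc]
    exact Nat.mul_div_cancel_left c (Nat.pos_of_ne_zero hm0)
  refine ⟨F, fun r hr => ((hF1 r).mp hr).1, fun r hr => ((hF1 r).mp hr).2.2,
    fun r hr hd => (hF1 r).mpr ⟨hπ r hr, hd, hr⟩, ?_, ?_⟩
  · -- `m` is the `F`-part
    have hsupp : m.primeFactors = F := by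
      ext t
      rw [Nat.mem_primeFactors, hF1]
      constructor
      · rintro ⟨h1, h2, -⟩
        exact ⟨h1, hc ▸ h2.mul_right c, hmπ t h1 h2⟩
      · rintro ⟨h1, h2, h3⟩
        refine ⟨h1, ?_, hm0⟩
        rw [hc] at h2
        rcases (Nat.Prime.dvd_mul h1).mp h2 with h4 | h4
        · exact h4
        · exact absurd (hdiv ▸ h4) (hm' t h3)
    have h1 := Nat.prod_factorization_pow_eq_self hm0
    rw [Finsupp.prod, Nat.support_factorization, hsupp] at h1
    rw [mm]
    conv_lhs => rw [← h1]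
    apply Finset.prod_congr rfl
    intro t ht
    have ht2 := (hF1 t).mp ht
    have h2 : (Nat.card G).factorization t = m.factorization t := by
      rw [hc, Nat.factorization_mul hm0 hc0, Finsupp.add_apply,
        Nat.factorization_eq_zero_of_not_dvd (fun h => hm' t ht2.2.2 (hdiv ▸ h)), add_zero]
    rw [h2]
  · rw [hk]
    apply Nat.card_congr
    apply Equiv.subtypeEquivRight
    intro C
    constructor
    · intro h x hx r hr hd
      rw [ConjClasses.mem_carrier_iff_mk_eq] at hx
      exact (hF1 r).mpr ⟨hr, hd.trans (orderOf_dvd_natCard x), h r hr ⟨x, hx, hd⟩⟩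
    · rintro h q hq ⟨g, hg, hd⟩
      exact ((hF1 q).mp (h g (by rw [ConjClasses.mem_carrier_iff_mk_eq, hg]) q hq hd)).2.2

theorem main_derived (π : Set ℕ) (hπ : ∀ q ∈ π, q.Prime) (p : ℕ) (hp : p ∈ π) (hmin : ∀ q ∈ π, p ≤ q)
    (m : ℕ) (hm : m ∣ Nat.card G) (hmπ : ∀ q : ℕ, q.Prime → q ∣ m → q ∈ π)
    (hm' : ∀ q ∈ π, ¬ q ∣ Nat.card G / m)
    (k : ℕ) (hk : k = Nat.card {C : ConjClasses G // ∀ q : ℕ, q.Prime → (∃ g : G, ConjClasses.mk g = C ∧ q ∣ orderOf g) → q ∈ π})
    (hmany : m < p * k) :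
    ∃ H : Subgroup G, Nat.card H = m ∧ Group.IsNilpotent H ∧ Nat.card (commutator H) ≤ p := by
  classical
  obtain ⟨F, hF, hFπ, hπF, hmF, hkF⟩ := exists_finset π hπ m hm hmπ hm' k hk
  have hpp : p.Prime := hπ p hp
  haveI : Fact p.Prime := ⟨hpp⟩
  have hminF : ∀ r ∈ F, p ≤ r := fun r hr => hmin r (hFπ r hr)
  have hyp : mm F G < p * Nat.card (SClasses F G) := by rwa [← hmF, ← hkF]
  obtain ⟨H, hHc, hHn⟩ := exists_nilpotent_hall F p hF hminF hyp
  have hyp1 : mm F G * 1 < p * Nat.card (SClasses F G) := by rwa [mul_one]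
  refine ⟨H, hHc.trans hmF.symm, hHn, ?_⟩
  haveI := hHn
  obtain ⟨T⟩ : Nonempty (Sylow p H) := inferInstance
  have hTn : (T : Subgroup H).Normal := inferInstance
  let D : Subgroup H := ⁅(T : Subgroup H), (T : Subgroup H)⁆
  have hDn : D.Normal := inferInstance
  have hle : commutator H ≤ D := by
    apply commutator_le_of_sylow D
    intro q _ T' x hx y hy
    by_cases hqF : q ∈ F
    · by_cases hqp : q = p
      · subst hqp
        have hTT : T' = T := by
          haveI := Sylow.unique_of_normal T hTn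
          exact Subsingleton.elim _ _
        rw [hTT] at hx hy
        have h1 := Subgroup.commutator_mem_commutator hx hy
        rwa [commutatorElement_def] at h1
      · have hlt : p < q := lt_of_le_of_ne (hminF q hqF) (Ne.symm hqp)
        have hab : ∀ P : Sylow q G, ∀ x ∈ (P : Subgroup G), ∀ y ∈ (P : Subgroup G), x * y = y * x := by
          intro P x hx y hy
          haveI := abelian_of_lt hlt P (card_lt_of_hyp hF hqF P hyp1)
          exact congrArg Subtype.val (mul_comm' (⟨x, hx⟩ : (P : Subgroup G)) ⟨y, hy⟩)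
        have h1 := sylow_commute_of_subgroup H hab T' hx hy
        rw [h1]
        have h2 : y * x * x⁻¹ * y⁻¹ = 1 := by group
        rw [h2]
        exact D.one_mem
    · have hd : ¬ q ∣ Nat.card H := by
        rw [hHc]
        intro h
        exact hqF (mem_of_prime_dvd_mm hF Fact.out h)
      rw [sylow_eq_one_of_not_dvd hd T' hx, sylow_eq_one_of_not_dvd hd T' hy]
      have h2 : (1 : H) * 1 * 1⁻¹ * 1⁻¹ = 1 := by group
      rw [h2]
      exact D.one_mem
  have hTp : IsPGroup p ((T : Subgroup H).map H.subtype) := T.isPGroup'.map _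
  obtain ⟨P₀, hP₀⟩ := hTp.exists_le_sylow
  have hbound : Nat.card (commutator (P₀ : Subgroup G)) ≤ p := by
    by_cases hpF : p ∈ F
    · exact derived_le_of_lt P₀ (card_lt_of_hyp hF hpF P₀ hyp1)
    · have hd : ¬ p ∣ Nat.card G := fun h => hpF (hπF p hp h)
      have h1 : Nat.card (P₀ : Subgroup G) = 1 := by
        rw [Sylow.card_eq_multiplicity, Nat.factorization_eq_zero_of_not_dvd hd, pow_zero]
      calc Nat.card (commutator (P₀ : Subgroup G)) ≤ Nat.card (P₀ : Subgroup G) :=
            Subgroup.card_le_card_group _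
        _ = 1 := h1
        _ ≤ p := hpp.one_le
  calc Nat.card (commutator H) ≤ Nat.card D := Subgroup.card_le_of_le hle
    _ = Nat.card (D.map H.subtype) := (Subgroup.card_map_of_injective H.subtype_injective).symm
    _ ≤ Nat.card ((commutator (P₀ : Subgroup G)).map (P₀ : Subgroup G).subtype) := by
        apply Subgroup.card_le_of_le
        rw [commutator_def, Subgroup.map_commutator, Subgroup.map_commutator]
        have h3 : (⊤ : Subgroup (P₀ : Subgroup G)).map (P₀ : Subgroup G).subtype = (P₀ : Subgroup G) := by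
          simp [← MonoidHom.range_eq_map]
        rw [h3]
        exact Subgroup.commutator_mono hP₀ hP₀
    _ = Nat.card (commutator (P₀ : Subgroup G)) :=
        Subgroup.card_map_of_injective (P₀ : Subgroup G).subtype_injective
    _ ≤ p := hbound

theorem main_abelian (π : Set ℕ) (hπ : ∀ q ∈ π, q.Prime) (p : ℕ) (hp : p ∈ π) (hmin : ∀ q ∈ π, p ≤ q)
    (m : ℕ) (hm : m ∣ Nat.card G) (hmπ : ∀ q : ℕ, q.Prime → q ∣ m → q ∈ π)
    (hm' : ∀ q ∈ π, ¬ q ∣ Nat.card G / m)
    (k : ℕ) (hk : k = Nat.card {C : ConjClasses G // ∀ q : ℕ, q.Prime → (∃ g : G, ConjClasses.mk g = C ∧ q ∣ orderOf g) → q ∈ π})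
    (hmany : m * (p ^ 2 + p - 1) < p ^ 3 * k) :
    ∃ H : Subgroup G, Nat.card H = m ∧ IsMulCommutative H := by
  classical
  obtain ⟨F, hF, hFπ, hπF, hmF, hkF⟩ := exists_finset π hπ m hm hmπ hm' k hk
  have hpp : p.Prime := hπ p hp
  haveI : Fact p.Prime := ⟨hpp⟩
  have hminF : ∀ r ∈ F, p ≤ r := fun r hr => hmin r (hFπ r hr)
  have hyp2 : mm F G * (p ^ 2 + p - 1) < p ^ 3 * Nat.card (SClasses F G) := by rwa [← hmF, ← hkF]
  have hyp : mm F G < p * Nat.card (SClasses F G) := by
    have hp2 : 0 < p ^ 2 := pow_pos hpp.pos 2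
    apply Nat.lt_of_mul_lt_mul_left (a := p ^ 2)
    calc p ^ 2 * mm F G ≤ mm F G * (p ^ 2 + p - 1) := by
          rw [mul_comm]
          apply Nat.mul_le_mul_left
          have := hpp.one_le
          omega
      _ < p ^ 3 * Nat.card (SClasses F G) := hyp2
      _ = _ := by ring
  obtain ⟨H, hHc, hHn⟩ := exists_nilpotent_hall F p hF hminF hyp
  have hyp1 : mm F G * 1 < p * Nat.card (SClasses F G) := by rwa [mul_one]
  refine ⟨H, hHc.trans hmF.symm, ?_⟩
  haveI := hHn
  apply isMulCommutative_of_sylow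
  intro q _ T' x hx y hy
  by_cases hqF : q ∈ F
  · have hab : ∀ P : Sylow q G, ∀ x ∈ (P : Subgroup G), ∀ y ∈ (P : Subgroup G), x * y = y * x := by
      intro P x hx y hy
      have hc : IsMulCommutative (P : Subgroup G) := by
        by_cases hqp : q = p
        · subst hqp
          by_contra hna
          have h1 := cube_mul_card_conjClasses_le P.isPGroup' hna
          have h2 := card_lt_of_hyp hF hqF P hyp2
          omega
        · have hlt : p < q := lt_of_le_of_ne (hminF q hqF) (Ne.symm hqp)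
          exact abelian_of_lt hlt P (card_lt_of_hyp hF hqF P hyp1)
      exact congrArg Subtype.val (mul_comm' (⟨x, hx⟩ : (P : Subgroup G)) ⟨y, hy⟩)
    exact sylow_commute_of_subgroup H hab T' hx hy
  · have hd : ¬ q ∣ Nat.card H := by
      rw [hHc]
      intro h
      exact hqF (mem_of_prime_dvd_mm hF Fact.out h)
    rw [sylow_eq_one_of_not_dvd hd T' hx, sylow_eq_one_of_not_dvd hd T' hy]

end final

end Cfsg.Agent.Lib.PiClass.Final
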