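import Cfsg.Agent.Lib.PiClass.Pair
import Cfsg.Agent.Lib.Solvable.Wielandt
import Cfsg.Agent.Lib.Core.Basic

/-!
# Nilpotent Hall subgroups from many classes of `π`-elements

`exists_nilpotent_hall`: if `F` is a finite set of primes, all at least `p`, and
`|G|_F < p k_F(G)`, then `G` has a nilpotent subgroup of order `|G|_F`.
-/

set_option autoImplicit false
set_option linter.unusedSectionVars false
set_option linter.style.haveILetI false
set_option linter.style.longLine false

namespace Cfsg.Agent.Lib.PiClass.Main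

open Subgroup MulAction
open scoped Pointwise
open Cfsg.Agent.Lib.PiClass.Burn Cfsg.Agent.Lib.PiClass.Count Cfsg.Agent.Lib.PiClass.Pair
open Cfsg.Agent.Lib.Transfer.Basic Cfsg.Agent.Lib.Transfer.ClassCount
  Cfsg.Agent.Lib.Transfer.PiClasses Cfsg.Agent.Lib.Transfer.PiClasses2
open Cfsg.Agent.Lib.Coprime.Action
open Cfsg.Agent.Lib.Transfer.Frobenius
open Cfsg.Agent.Lib.Coprime.SchurZassenhaus

universe u

/-- The `F`-part of `|G|`. -/
noncomputable abbrev mm (F : Finset ℕ) (G : Type u) [Group G] : ℕ := ∏ r ∈ F, r ^ (Nat.card G).factorization r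

variable {G : Type u} [Group G] [Finite G]

theorem card_sylow_eq {s : ℕ} [hs : Fact s.Prime] (S : Sylow s G) :
    Nat.card (S : Subgroup G) = s ^ (Nat.card G).factorization s := Sylow.card_eq_multiplicity S

theorem mm_pos (F : Finset ℕ) (hF : ∀ r ∈ F, r.Prime) : 0 < mm F G :=
  Finset.prod_pos (fun r hr => pow_pos (hF r hr).pos _)

theorem mm_eq_mul {F : Finset ℕ} {s : ℕ} [hs : Fact s.Prime] (hsF : s ∈ F) (S : Sylow s G) :
    mm F G = Nat.card (S : Subgroup G) * mm (F.erase s) G := by
  rw [card_sylow_eq]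
  exact (Finset.mul_prod_erase F (fun r => r ^ (Nat.card G).factorization r) hsF).symm

theorem mem_of_prime_dvd_mm {F : Finset ℕ} (hF : ∀ r ∈ F, r.Prime) {t : ℕ} (ht : t.Prime)
    (hd : t ∣ mm F G) : t ∈ F := by
  obtain ⟨r, hr, hd2⟩ := (Prime.dvd_finsetProd_iff ht.prime _).mp hd
  have h3 := ht.dvd_of_dvd_pow hd2
  rwa [(Nat.prime_dvd_prime_iff_eq ht (hF r hr)).mp h3]

theorem coprime_mm_erase {F : Finset ℕ} (hF : ∀ r ∈ F, r.Prime) {s : ℕ} (hs : s.Prime) :
    (mm (F.erase s) G).Coprime s := by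
  rw [Nat.coprime_comm, Nat.Prime.coprime_iff_not_dvd hs]
  intro h
  have hF' : ∀ r ∈ F.erase s, r.Prime := fun r hr => hF r (Finset.mem_of_mem_erase hr)
  exact (Finset.notMem_erase s F) (mem_of_prime_dvd_mm hF' hs h)

/-- Passing to a set with one prime less. -/
theorem hyp_erase {F : Finset ℕ} {p s : ℕ} (hsF : s ∈ F) (hs : s.Prime)
    (hyp : mm F G < p * Nat.card (SClasses F G)) :
    mm (F.erase s) G < p * Nat.card (SClasses (F.erase s) G) := by
  haveI : Fact s.Prime := ⟨hs⟩
  obtain ⟨S⟩ : Nonempty (Sylow s G) := inferInstance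
  have h1 := card_insert_le s (F.erase s) S
  rw [Finset.insert_erase hsF] at h1
  rw [mm_eq_mul hsF S] at hyp
  have hpos : 0 < Nat.card (S : Subgroup G) := Nat.card_pos
  apply Nat.lt_of_mul_lt_mul_left (a := Nat.card (S : Subgroup G))
  calc Nat.card (S : Subgroup G) * mm (F.erase s) G < p * Nat.card (SClasses F G) := hyp
    _ ≤ p * (Nat.card (SClasses (F.erase s) G) * Nat.card (S : Subgroup G)) := Nat.mul_le_mul_left _ h1
    _ = _ := by ring

theorem hyp_subset {F : Finset ℕ} {p : ℕ} (hF : ∀ r ∈ F, r.Prime) {F' : Finset ℕ} (hsub : F' ⊆ F)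
    (hyp : mm F G < p * Nat.card (SClasses F G)) :
    mm F' G < p * Nat.card (SClasses F' G) := by
  classical
  induction hn : (F \ F').card using Nat.strong_induction_on generalizing F with
  | _ n ih =>
  by_cases hFF : F = F'
  · rw [← hFF]
    exact hyp
  · obtain ⟨t, ht⟩ : (F \ F').Nonempty := by
      rw [Finset.sdiff_nonempty]
      intro h
      exact hFF (Finset.Subset.antisymm h hsub)
    have ht1 := Finset.mem_sdiff.mp ht
    refine ih ((F.erase t) \ F').card ?_ (fun r hr => hF r (Finset.mem_of_mem_erase hr))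
      (fun r hr => Finset.mem_erase.mpr ⟨fun h => ht1.2 (by rw [← h]; exact hr), hsub hr⟩)
      (hyp_erase ht1.1 (hF t ht1.1) hyp) rfl
    rw [← hn]
    apply Finset.card_lt_card
    refine ⟨?_, ?_⟩
    · intro r hr
      have := Finset.mem_sdiff.mp hr
      exact Finset.mem_sdiff.mpr ⟨Finset.mem_of_mem_erase this.1, this.2⟩
    · intro h
      have := h ht
      simp at this

/-- The `F`-part of the order of a subgroup divides the `F`-part of `|G|`. -/
theorem mm_subgroup_dvd (F : Finset ℕ) (Y : Subgroup G) :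
    mm F Y ∣ mm F G := by
  apply Finset.prod_dvd_prod_of_dvd
  intro r hr
  apply pow_dvd_pow
  exact (Nat.factorization_le_iff_dvd Nat.card_pos.ne' Nat.card_pos.ne').mpr
    (Subgroup.card_subgroup_dvd_card Y) r

theorem eq_of_lt_of_dvd {F : Finset ℕ} (hF : ∀ r ∈ F, r.Prime) {p : ℕ} (hmin : ∀ r ∈ F, p ≤ r)
    {m' : ℕ} (hd : m' ∣ mm F G) (hlt : mm F G < p * m') : m' = mm F G := by
  obtain ⟨d, hdd⟩ := hd
  by_cases h1 : d = 1
  · rw [hdd, h1, mul_one]
  · exfalso
    obtain ⟨t, ht, htd⟩ := Nat.exists_prime_and_dvd h1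
    have ht2 : t ∈ F := mem_of_prime_dvd_mm hF ht (hdd ▸ htd.mul_left m')
    have hm' : 0 < mm F G := mm_pos F hF
    have hd0 : 0 < d := by
      rcases Nat.eq_zero_or_pos d with h | h
      · rw [h, mul_zero] at hdd
        omega
      · exact h
    have h3 : p ≤ d := (hmin t ht2).trans (Nat.le_of_dvd hd0 htd)
    have h4 : p * m' ≤ mm F G := by
      rw [hdd, mul_comm]
      exact Nat.mul_le_mul_left _ h3
    omega

/-- Two commuting nilpotent subgroups of coprime orders generate a nilpotent subgroup. -/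
theorem exists_sup_nilpotent (A B : Subgroup G) (hA : Group.IsNilpotent A) (hB : Group.IsNilpotent B)
    (hcomm : ∀ a ∈ A, ∀ b ∈ B, a * b = b * a) (hcop : (Nat.card A).Coprime (Nat.card B)) :
    ∃ H : Subgroup G, Nat.card H = Nat.card A * Nat.card B ∧ Group.IsNilpotent H := by
  let φ : A × B →* G := MonoidHom.noncommCoprod A.subtype B.subtype
    (fun a b => hcomm a a.2 b b.2)
  have hφ : Function.Injective φ := by
    rw [injective_iff_map_eq_one]
    rintro ⟨a, b⟩ h
    have h1 : (a : G) * (b : G) = 1 := h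
    have h2 : (a : G) = (b : G)⁻¹ := eq_inv_of_mul_eq_one_left h1
    have h3 : (a : G) ∈ B := h2 ▸ B.inv_mem b.2
    have h4 : orderOf (a : G) = 1 :=
      Nat.eq_one_of_dvd_coprimes hcop (Subgroup.orderOf_dvd_natCard A a.2)
        (Subgroup.orderOf_dvd_natCard B h3)
    have h5 : (a : G) = 1 := orderOf_eq_one_iff.mp h4
    have h6 : (b : G) = 1 := by
      rw [h5, one_mul] at h1
      exact h1
    exact Prod.ext (Subtype.ext h5) (Subtype.ext h6)
  refine ⟨φ.range, ?_, ?_⟩
  · rw [← Nat.card_prod]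
    exact (Nat.card_congr (MonoidHom.ofInjective hφ).toEquiv).symm
  · exact Group.nilpotent_of_surjective φ.rangeRestrict φ.rangeRestrict_surjective

theorem mem_normalizer_of_conj_le (T : Subgroup G) (h : G) (H : ∀ y ∈ T, h * y * h⁻¹ ∈ T) :
    h ∈ normalizer (T : Set G) := by
  let f : T → T := fun y => ⟨h * y * h⁻¹, H y y.2⟩
  have hf : Function.Injective f := by
    intro x y hxy
    have h1 : h * (x : G) * h⁻¹ = h * (y : G) * h⁻¹ := congrArg Subtype.val hxy
    exact Subtype.ext (mul_left_cancel (mul_right_cancel h1))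
  have hs := Finite.injective_iff_surjective.mp hf
  rw [Subgroup.mem_normalizer_iff]
  intro n
  refine ⟨fun hn => H n hn, fun hn => ?_⟩
  obtain ⟨y, hy⟩ := hs ⟨_, hn⟩
  have h1 : h * (y : G) * h⁻¹ = h * n * h⁻¹ := congrArg Subtype.val hy
  have h2 : (y : G) = n := mul_left_cancel (mul_right_cancel h1)
  exact h2 ▸ y.2

/-- A subgroup with the order of the `F`-part is a Hall subgroup. -/
theorem coprime_index_of_card_eq {F : Finset ℕ} (hF : ∀ r ∈ F, r.Prime) (H : Subgroup G)
    (hc : Nat.card H = mm F G) : (Nat.card H).Coprime H.index := by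
  apply Nat.coprime_of_dvd
  intro t ht htH hti
  rw [hc] at htH
  have htF := mem_of_prime_dvd_mm hF ht htH
  haveI : Fact t.Prime := ⟨ht⟩
  obtain ⟨S⟩ : Nonempty (Sylow t G) := inferInstance
  have h1 := H.card_mul_index
  rw [hc, mm_eq_mul htF S, card_sylow_eq] at h1
  set v := (Nat.card G).factorization t with hv
  have h2 : t ^ (v + 1) ∣ Nat.card G := by
    obtain ⟨w, hw⟩ := hti
    refine ⟨mm (F.erase t) G * w, ?_⟩
    rw [← h1, hw]
    ring
  exact Nat.pow_succ_factorization_not_dvd Nat.card_pos.ne' ht h2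

/-- **Lemma C**: the numerical consequence in the case where `Q` and `P₁` are not in the centre
of their normalizers. -/
theorem lemma_C {F : Finset ℕ} {p q p₁ : ℕ} [hq : Fact q.Prime] [hp₁ : Fact p₁.Prime]
    (hqF : q ∈ F) (hp₁F : p₁ ∈ F) (hlt : p₁ < q) (hpp₁ : p ≤ p₁) (hF : ∀ r ∈ F, r.Prime)
    (Q : Sylow q G) (P₁ : Sylow p₁ G)
    (hQ : ¬ NS Q ≤ CS Q) (hP₁ : ¬ NS P₁ ≤ CS P₁)
    (hyp : mm F G < p * Nat.card (SClasses F G)) :
    mm (F.erase q) G < p * Nat.card (SClasses (F.erase q) (CS Q)) := by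
  classical
  set F₁ := F.erase q with hF₁
  have hE := count_E2 Q F₁
  rw [hF₁, Finset.insert_erase hqF, ← hF₁] at hE
  have hp₁F₁ : p₁ ∈ F₁ := Finset.mem_erase.mpr ⟨hlt.ne, hp₁F⟩
  have hF₁p : ∀ r ∈ F₁, r.Prime := fun r hr => hF r (Finset.mem_of_mem_erase hr)
  have h1 := two_mul_card_pClasses_le P₁ hP₁
  have h2 := card_sClasses_le_mul F₁ hF₁p p₁ hp₁F₁ (G := G)
  have hmF : mm F G = Nat.card (Q : Subgroup G) * mm F₁ G := mm_eq_mul hqF Q
  have hmF₁ : mm F₁ G = Nat.card (P₁ : Subgroup G) * mm (F₁.erase p₁) G := mm_eq_mul hp₁F₁ P₁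
  -- `2 |Y| ≤ |M|`
  have hYM : 2 * Nat.card (CS Q) ≤ Nat.card (NS Q) := by
    have hle : CS Q ≤ NS Q := Subgroup.centralizer_le_normalizer _
    have h3 := card_eq_card_mul_relIndex hle
    have h4 : (CS Q).relIndex (NS Q) ≠ 1 := by
      intro h5
      rw [h5, mul_one] at h3
      exact hQ (Subgroup.eq_of_le_of_card_ge hle h3.le ▸ le_refl _)
    have h5 : (CS Q).relIndex (NS Q) ≠ 0 := by
      intro h5
      rw [h5, mul_zero] at h3
      exact Nat.card_pos.ne' h3
    have h6 : 2 ≤ (CS Q).relIndex (NS Q) := by omega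
    rw [h3, mul_comm]
    exact Nat.mul_le_mul_left _ h6
  set k := Nat.card (SClasses F G)
  set k₁ := Nat.card (SClasses F₁ G)
  set κ := Nat.card (SClasses F₁ (CS Q))
  set m₁ := mm F₁ G
  set a := Nat.card (Q : Subgroup G)
  set nm := Nat.card (NS Q)
  set y := Nat.card (CS Q)
  set w := mm (F₁.erase p₁) G
  set kp := Nat.card (PClasses p₁ G)
  have h7 : 2 * p * k₁ ≤ q * m₁ := by
    have h8 : 2 * p₁ * k₁ ≤ (p₁ + 1) * m₁ := by
      rw [hmF₁]
      calc 2 * p₁ * k₁ ≤ 2 * p₁ * (kp * w) := Nat.mul_le_mul_left _ h2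
        _ = (2 * p₁ * kp) * w := by ring
        _ ≤ ((p₁ + 1) * Nat.card (P₁ : Subgroup G)) * w := Nat.mul_le_mul_right _ h1
        _ = _ := by ring
    calc 2 * p * k₁ ≤ 2 * p₁ * k₁ := by gcongr
      _ ≤ (p₁ + 1) * m₁ := h8
      _ ≤ q * m₁ := Nat.mul_le_mul_right _ hlt
  by_contra hcon
  push Not at hcon
  have hq1 : 1 ≤ q := hq.out.one_le
  obtain ⟨d, hd⟩ : ∃ d, q = d + 1 := ⟨q - 1, by omega⟩
  rw [hd] at hE h7
  simp only [Nat.add_sub_cancel] at hE
  have hpos : 0 < 2 * (d + 1) * nm := by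
    have : 0 < nm := Nat.card_pos
    positivity
  have hposm : 0 < a * nm * m₁ := by
    have h9 : 0 < nm := Nat.card_pos
    have h10 : 0 < a := Nat.card_pos
    have h11 : 0 < m₁ := mm_pos F₁ hF₁p
    positivity
  have hlast : 2 * (d + 1) * (a * nm * m₁) ≤ (2 * d + 1) * (a * nm * m₁) := by
    calc 2 * (d + 1) * (a * nm * m₁) = 2 * (d + 1) * nm * (a * m₁) := by ring
      _ ≤ 2 * (d + 1) * nm * (p * k) := by
          apply Nat.mul_le_mul_left
          rw [← hmF]
          exact hyp.le
      _ = 2 * p * ((d + 1) * nm * k) := by ring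
      _ ≤ 2 * p * (d * a * y * κ + a * nm * k₁) := Nat.mul_le_mul_left _ hE
      _ = 2 * d * a * y * (p * κ) + a * nm * (2 * p * k₁) := by ring
      _ ≤ 2 * d * a * y * m₁ + a * nm * ((d + 1) * m₁) := by
          gcongr
      _ = d * a * m₁ * (2 * y) + (d + 1) * (a * nm * m₁) := by ring
      _ ≤ d * a * m₁ * nm + (d + 1) * (a * nm * m₁) := by gcongr
      _ = (2 * d + 1) * (a * nm * m₁) := by ring
  have := Nat.le_of_mul_le_mul_right hlast hposm
  omega

/-- In a nilpotent group, every `r`-element lies in the Sylow `r`-subgroup. -/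
theorem mem_sylow_of_nilpotent {A : Type u} [Group A] [Finite A] [Group.IsNilpotent A] {r : ℕ}
    [hr : Fact r.Prime] (P : Sylow r A) {y : A} (hy : ∃ k : ℕ, y ^ r ^ k = 1) : y ∈ (P : Subgroup A) := by
  have hI : IsSylowIn r (P : Subgroup A) ⊤ := by
    refine ⟨le_top, P.isPGroup', ?_⟩
    rw [Subgroup.relIndex_top_right]
    exact P.not_dvd_index
  obtain ⟨c, -, hc⟩ := exists_conj_mem_of_isSylowIn hI (Subgroup.mem_top y) hy
  have hn : (P : Subgroup A).Normal := inferInstance
  have h1 := hn.conj_mem _ hc c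
  have h2 : c * (c⁻¹ * y * c) * c⁻¹ = y := by group
  rwa [h2] at h1

section lemmaB

variable {F : Finset ℕ} {p s : ℕ} [hs : Fact s.Prime] (S : Sylow s G) (hN : NS S ≤ CS S)

include hN in
/-- The conjugates of a nilpotent Hall subgroup of the complement: there is one normalized by `S`. -/
theorem exists_conj_normalized (hF : ∀ r ∈ F, r.Prime)
    (H₁ : Subgroup G) (hc : Nat.card H₁ = mm (F.erase s) G) (hnil : Group.IsNilpotent H₁) :
    ∃ a : G, (S : Subgroup G) ≤ normalizer ((MulAut.conj a • H₁ : Subgroup G) : Set G) := by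
  have hF' : ∀ r ∈ F.erase s, r.Prime := fun r hr => hF r (Finset.mem_of_mem_erase hr)
  have hcop : (Nat.card H₁).Coprime s := hc ▸ coprime_mm_erase hF hs.out
  set K := KK S hN with hK
  have hH₁K : H₁ ≤ K := le_KK S hN H₁ hcop
  let e := subgroupOfEquivOfLe hH₁K
  have hHnil : Group.IsNilpotent (H₁.subgroupOf K) :=
    Group.nilpotent_of_surjective e.symm.toMonoidHom e.symm.surjective
  have hHc : Nat.card (H₁.subgroupOf K) = Nat.card H₁ := Nat.card_congr e.toEquiv
  have hHall : (Nat.card (H₁.subgroupOf K)).Coprime (H₁.subgroupOf K).index := by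
    rw [hHc]
    have h1 := coprime_index_of_card_eq hF' H₁ hc
    have h2 : (H₁.subgroupOf K).index ∣ H₁.index := by
      rw [← relIndex_mul_index hH₁K]
      exact ⟨K.index, rfl⟩
    exact Nat.Coprime.coprime_dvd_right h2 h1
  have hKn : K.Normal := inferInstance
  set N₁ := normalizer (H₁ : Set G) with hN₁
  have hsup : N₁ ⊔ K = ⊤ := by
    rw [eq_top_iff]
    intro g _
    let A : Subgroup G := MulAut.conj g • H₁
    have hAc : Nat.card A = Nat.card H₁ :=
      (Nat.card_congr (Subgroup.equivSMul (MulAut.conj g) H₁).toEquiv).symm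
    have hAK : A ≤ K := by
      intro x hx
      rw [mem_conj_smul_iff] at hx
      have h1 := hKn.conj_mem _ (hH₁K hx) g
      have h2 : g * (g⁻¹ * x * g) * g⁻¹ = x := by group
      rwa [h2] at h1
    have hLc : Nat.card (A.subgroupOf K) = Nat.card H₁ := by
      rw [← hAc]
      exact Nat.card_congr (subgroupOfEquivOfLe hAK).toEquiv
    obtain ⟨x, hx⟩ := Cfsg.Agent.Lib.Solvable.Wielandt.exists_le_conj_of_nilpotent_hall
      (H₁.subgroupOf K) hHnil hHall (A.subgroupOf K) (by
        intro t _ ht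
        rw [hHc]
        rwa [hLc] at ht)
    have hh : ((x : G)⁻¹ * g) ∈ N₁ := by
      apply mem_normalizer_of_conj_le
      intro y hy
      have h1 : g * y * g⁻¹ ∈ A := by
        rw [mem_conj_smul_iff]
        have h2 : g⁻¹ * (g * y * g⁻¹) * g = y := by group
        rwa [h2]
      have h3 : (⟨_, hAK h1⟩ : K) ∈ A.subgroupOf K := Subgroup.mem_subgroupOf.mpr h1
      have h4 := hx h3
      rw [mem_conj_smul_iff, Subgroup.mem_subgroupOf] at h4
      have h5 : ((x : G)⁻¹ * g) * y * ((x : G)⁻¹ * g)⁻¹ = (x : G)⁻¹ * (g * y * g⁻¹) * (x : G) := by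
        group
      rw [h5]
      simpa using h4
    have h6 : g = (x : G) * ((x : G)⁻¹ * g) := by group
    rw [h6, sup_comm]
    exact Subgroup.mul_mem_sup x.2 hh
  have hidx : ¬ s ∣ N₁.index := by
    intro h
    have h1 := index_dvd_card_of_sup_eq_top N₁ K hsup
    have h2 := h.trans h1
    rw [hK, card_KK] at h2
    exact S.not_dvd_index h2
  obtain ⟨a, ha⟩ := exists_conj_le (S : Subgroup G) N₁ S.isPGroup' hidx
  refine ⟨a, fun t ht => ?_⟩
  rw [mem_normalizer_conj_iff]
  exact ha t ht

include hN in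
/-- An `S`-invariant nilpotent Hall subgroup of the complement is centralized by `S`. -/
theorem le_centralizer_of_normalized (hF : ∀ r ∈ F, r.Prime) (hsF : s ∈ F) (hps : p ≤ s)
    (hyp : mm F G < p * Nat.card (SClasses F G))
    (H₂ : Subgroup G) (hc : Nat.card H₂ = mm (F.erase s) G) (hnil : Group.IsNilpotent H₂)
    (hSH : (S : Subgroup G) ≤ normalizer (H₂ : Set G)) : H₂ ≤ CS S := by
  classical
  have hF' : ∀ r ∈ F.erase s, r.Prime := fun r hr => hF r (Finset.mem_of_mem_erase hr)
  haveI := hnil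
  have htop : (CS S).subgroupOf H₂ = ⊤ := by
    apply Cfsg.Agent.Lib.Core.Basic.eq_top_of_forall_sylow_le
    intro r hr
    obtain ⟨P⟩ : Nonempty (Sylow r H₂) := inferInstance
    refine ⟨P, ?_⟩
    by_cases hrF : r ∈ F.erase s
    · have hrs : r ≠ s := (Finset.mem_erase.mp hrF).1
      have hrF2 := (Finset.mem_erase.mp hrF).2
      let R₀ : Subgroup G := (P : Subgroup H₂).map H₂.subtype
      have hR₀p : IsPGroup r R₀ := P.isPGroup'.map _
      obtain ⟨R, hR⟩ := hR₀p.exists_le_sylow
      have hcardR₀ : Nat.card R₀ = r ^ (Nat.card H₂).factorization r := by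
        rw [← Sylow.card_eq_multiplicity P]
        exact Subgroup.card_map_of_injective H₂.subtype_injective
      have hv : (Nat.card G).factorization r ≤ (Nat.card H₂).factorization r := by
        have h1 : r ^ (Nat.card G).factorization r ∣ Nat.card H₂ := by
          rw [hc]
          exact Finset.dvd_prod_of_mem (fun r => r ^ (Nat.card G).factorization r) hrF
        exact (Nat.Prime.pow_dvd_iff_le_factorization hr.out Nat.card_pos.ne').mp h1
      have hRR₀ : (R : Subgroup G) = R₀ := by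
        symm
        apply Subgroup.eq_of_le_of_card_ge hR
        rw [hcardR₀, Sylow.card_eq_multiplicity]
        exact Nat.pow_le_pow_right hr.out.pos hv
      have hSR : (S : Subgroup G) ≤ normalizer ((R : Subgroup G) : Set G) := by
        intro t ht
        rw [hRR₀]
        apply mem_normalizer_of_conj_le
        intro x hx
        obtain ⟨x', hx', rfl⟩ := hx
        have h1 : t * (x' : G) * t⁻¹ ∈ H₂ := (mem_normalizer_iff.mp (hSH ht) x').mp x'.2
        refine ⟨⟨_, h1⟩, ?_, rfl⟩
        apply mem_sylow_of_nilpotent P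
        obtain ⟨k, hk⟩ := (IsPGroup.iff_orderOf.mp P.isPGroup') ⟨x', hx'⟩
        refine ⟨k, ?_⟩
        apply Subtype.ext
        have h2 : (x' : G) ^ r ^ k = 1 := by
          have h3 : orderOf (x' : G) = r ^ k := by
            rw [← hk, Subgroup.orderOf_mk, Subgroup.orderOf_coe]
          rw [← h3, pow_orderOf_eq_one]
        change (t * (x' : G) * t⁻¹) ^ r ^ k = 1
        rw [conj_pow, h2]
        group
      by_contra hcon
      have hne : ¬ (R : Subgroup G) ≤ centralizer ((S : Subgroup G) : Set G) := by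
        intro h
        apply hcon
        intro x hx
        rw [Subgroup.mem_subgroupOf]
        apply h
        rw [hRR₀]
        exact ⟨x, hx, rfl⟩
      have hpc := pair_count S hN hrs R hSR hne
      have hsub : insert s ({r} : Finset ℕ) ⊆ F := by
        intro t ht
        rcases Finset.mem_insert.mp ht with h | h
        · rw [h]
          exact hsF
        · rw [Finset.mem_singleton.mp h]
          exact hrF2
      have hy := hyp_subset hF hsub hyp
      have hm : mm (insert s ({r} : Finset ℕ)) G =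
          Nat.card (S : Subgroup G) * Nat.card (R : Subgroup G) := by
        rw [mm_eq_mul (Finset.mem_insert_self _ _) S,
          Finset.erase_insert (by simpa using hrs.symm)]
        congr 1
        rw [mm, Finset.prod_singleton, card_sylow_eq]
      rw [hm] at hy
      have h5 : Nat.card (S : Subgroup G) * Nat.card (R : Subgroup G) <
          s * Nat.card (SClasses (insert s ({r} : Finset ℕ)) G) :=
        lt_of_lt_of_le hy (Nat.mul_le_mul_right _ hps)
      rw [mul_comm] at h5
      omega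
    · have h1 : ¬ r ∣ Nat.card H₂ := by
        rw [hc]
        intro h
        exact hrF (mem_of_prime_dvd_mm hF' hr.out h)
      have h2 : Nat.card (P : Subgroup H₂) = 1 := by
        rw [Sylow.card_eq_multiplicity, Nat.factorization_eq_zero_of_not_dvd h1, pow_zero]
      have h3 : (P : Subgroup H₂) = ⊥ := Subgroup.eq_bot_of_card_eq _ h2
      rw [h3]
      exact bot_le
  intro x hx
  have h6 : (⟨x, hx⟩ : H₂) ∈ (CS S).subgroupOf H₂ := htop ▸ Subgroup.mem_top _
  exact Subgroup.mem_subgroupOf.mp h6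

include hN in
/-- **Lemma B**. -/
theorem lemma_B (hF : ∀ r ∈ F, r.Prime) (hsF : s ∈ F) (hps : p ≤ s)
    (hyp : mm F G < p * Nat.card (SClasses F G))
    (H₁ : Subgroup G) (hc : Nat.card H₁ = mm (F.erase s) G) (hnil : Group.IsNilpotent H₁) :
    ∃ H : Subgroup G, Nat.card H = mm F G ∧ Group.IsNilpotent H := by
  obtain ⟨a, ha⟩ := exists_conj_normalized S hN hF H₁ hc hnil
  let e := Subgroup.equivSMul (MulAut.conj a) H₁
  have hc2 : Nat.card (MulAut.conj a • H₁ : Subgroup G) = mm (F.erase s) G := by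
    rw [← hc]
    exact (Nat.card_congr e.toEquiv).symm
  have hnil2 : Group.IsNilpotent (MulAut.conj a • H₁ : Subgroup G) :=
    Group.nilpotent_of_surjective e.toMonoidHom e.surjective
  have hle := le_centralizer_of_normalized S hN hF hsF hps hyp _ hc2 hnil2 ha
  have hSn : Group.IsNilpotent (S : Subgroup G) := S.isPGroup'.isNilpotent
  obtain ⟨H, hH, hHn⟩ := exists_sup_nilpotent (MulAut.conj a • H₁ : Subgroup G) (S : Subgroup G) hnil2 hSn
    (fun x hx y hy => (Subgroup.mem_centralizer_iff.mp (hle hx) y hy).symm) (by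
      rw [hc2, card_sylow_eq]
      exact Nat.Coprime.pow_right _ (coprime_mm_erase hF hs.out))
  refine ⟨H, ?_, hHn⟩
  rw [hH, hc2, mm_eq_mul hsF S, mul_comm]

end lemmaB

/-- **The main theorem.** -/
theorem exists_nilpotent_hall_aux : ∀ (n : ℕ) (G : Type u) [Group G] [Finite G], Nat.card G = n →
    ∀ (F : Finset ℕ) (p : ℕ), (∀ r ∈ F, r.Prime) → (∀ r ∈ F, p ≤ r) →
      mm F G < p * Nat.card (SClasses F G) →
        ∃ H : Subgroup G, Nat.card H = mm F G ∧ Group.IsNilpotent H := by
  classical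
  intro n
  induction n using Nat.strong_induction_on with
  | _ n IHn =>
  intro G _ _ hn F
  induction hf : F.card using Nat.strong_induction_on generalizing F with
  | _ f IHf =>
  intro p hF hmin hyp
  -- the erased set
  have herase : ∀ t ∈ F, ∃ H : Subgroup G, Nat.card H = mm (F.erase t) G ∧ Group.IsNilpotent H := by
    intro t ht
    refine IHf (F.erase t).card ?_ (F.erase t) rfl p
      (fun r hr => hF r (Finset.mem_of_mem_erase hr))
      (fun r hr => hmin r (Finset.mem_of_mem_erase hr)) (hyp_erase ht (hF t ht) hyp)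
    rw [← hf]
    exact Finset.card_erase_lt_of_mem ht
  by_cases hall : ∀ t ∈ F, t ∣ Nat.card G
  · by_cases hcard : F.card ≤ 1
    · -- at most one prime
      rcases Finset.eq_empty_or_nonempty F with he | ⟨t, ht⟩
      · subst he
        refine ⟨⊥, ?_, inferInstance⟩
        rw [Subgroup.card_bot, mm, Finset.prod_empty]
      · have hFt : F = {t} :=
          Finset.eq_singleton_iff_unique_mem.mpr ⟨ht, fun x hx => Finset.card_le_one.mp hcard x hx t ht⟩
        subst hFt
        haveI : Fact t.Prime := ⟨hF t ht⟩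
        obtain ⟨P⟩ : Nonempty (Sylow t G) := inferInstance
        refine ⟨P, ?_, P.isPGroup'.isNilpotent⟩
        rw [mm, Finset.prod_singleton, card_sylow_eq]
    · -- at least two primes
      have hcard2 : 1 < F.card := by omega
      have hne : F.Nonempty := Finset.card_pos.mp (by omega)
      set q := F.max' hne with hq
      set p₁ := F.min' hne with hp₁
      have hqF : q ∈ F := Finset.max'_mem _ _
      have hp₁F : p₁ ∈ F := Finset.min'_mem _ _
      have hlt : p₁ < q := Finset.min'_lt_max'_of_card F hcard2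
      haveI hqf : Fact q.Prime := ⟨hF q hqF⟩
      haveI hp₁f : Fact p₁.Prime := ⟨hF p₁ hp₁F⟩
      have hpp₁ : p ≤ p₁ := hmin p₁ hp₁F
      obtain ⟨Q⟩ : Nonempty (Sylow q G) := inferInstance
      obtain ⟨P₁⟩ : Nonempty (Sylow p₁ G) := inferInstance
      by_cases hQ : NS Q ≤ CS Q
      · obtain ⟨H₁, hH₁, hH₁n⟩ := herase q hqF
        exact lemma_B Q hQ hF hqF (hmin q hqF) hyp H₁ hH₁ hH₁n
      by_cases hP₁ : NS P₁ ≤ CS P₁
      · obtain ⟨H₁, hH₁, hH₁n⟩ := herase p₁ hp₁F
        exact lemma_B P₁ hP₁ hF hp₁F (hmin p₁ hp₁F) hyp H₁ hH₁ hH₁n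
      have hC := lemma_C hqF hp₁F hlt hpp₁ hF Q P₁ hQ hP₁ hyp
      set F₁ := F.erase q with hF₁
      have hF₁p : ∀ r ∈ F₁, r.Prime := fun r hr => hF r (Finset.mem_of_mem_erase hr)
      have hF₁m : ∀ r ∈ F₁, p ≤ r := fun r hr => hmin r (Finset.mem_of_mem_erase hr)
      have hd := mm_subgroup_dvd F₁ (CS Q)
      have hκ : Nat.card (SClasses F₁ (CS Q)) ≤ mm F₁ (CS Q) := card_sClasses_le F₁ hF₁p (CS Q)
      have hlt2 : mm F₁ G < p * mm F₁ (CS Q) := lt_of_lt_of_le hC (Nat.mul_le_mul_left _ hκ)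
      have heq := eq_of_lt_of_dvd hF₁p hF₁m hd hlt2
      have hY : Nat.card (CS Q) < n := by
        rw [← hn]
        apply lt_of_le_of_ne (Subgroup.card_le_card_group _)
        intro h
        have h1 : CS Q = ⊤ := Subgroup.eq_top_of_card_eq _ h
        exact hQ (h1 ▸ le_top)
      have hY2 : mm F₁ (CS Q) < p * Nat.card (SClasses F₁ (CS Q)) := by
        rw [heq]
        exact hC
      obtain ⟨H₂, hH₂, hH₂n⟩ := IHn _ hY (CS Q) rfl F₁ p hF₁p hF₁m hY2
      let A : Subgroup G := H₂.map (CS Q).subtype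
      have hAc : Nat.card A = Nat.card H₂ := Subgroup.card_map_of_injective (CS Q).subtype_injective
      let e := H₂.equivMapOfInjective (CS Q).subtype (CS Q).subtype_injective
      have hAn : Group.IsNilpotent A := Group.nilpotent_of_surjective e.toMonoidHom e.surjective
      have hAC : A ≤ CS Q := Subgroup.map_subtype_le _
      have hSn : Group.IsNilpotent (Q : Subgroup G) := Q.isPGroup'.isNilpotent
      obtain ⟨H, hH, hHn⟩ := exists_sup_nilpotent A (Q : Subgroup G) hAn hSn
        (fun x hx y hy => (Subgroup.mem_centralizer_iff.mp (hAC hx) y hy).symm) (by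
          rw [hAc, hH₂, heq, card_sylow_eq]
          exact Nat.Coprime.pow_right _ (coprime_mm_erase hF hqf.out))
      refine ⟨H, ?_, hHn⟩
      rw [hH, hAc, hH₂, heq, mm_eq_mul hqF Q, mul_comm]
  · -- a prime of `F` does not divide `|G|`
    push Not at hall
    obtain ⟨t, ht, htG⟩ := hall
    obtain ⟨H₁, hH₁, hH₁n⟩ := herase t ht
    refine ⟨H₁, ?_, hH₁n⟩
    rw [hH₁]
    have h1 : (Nat.card G).factorization t = 0 := Nat.factorization_eq_zero_of_not_dvd htG
    have h2 := Finset.mul_prod_erase F (fun r => r ^ (Nat.card G).factorization r) ht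
    simp only [h1, pow_zero, one_mul] at h2
    exact h2

/-- **The main theorem**: if `F` is a finite set of primes, all at least `p`, and
`|G|_F < p k_F(G)`, then `G` has a nilpotent subgroup of order `|G|_F`. -/
theorem exists_nilpotent_hall (F : Finset ℕ) (p : ℕ) (hF : ∀ r ∈ F, r.Prime) (hmin : ∀ r ∈ F, p ≤ r)
    (hyp : mm F G < p * Nat.card (SClasses F G)) :
    ∃ H : Subgroup G, Nat.card H = mm F G ∧ Group.IsNilpotent H :=
  exists_nilpotent_hall_aux _ G rfl F p hF hmin hyp

end Cfsg.Agent.Lib.PiClass.Main
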