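import Cfsg.Agent.Lib.PiClass.Count

/-!
# The pair lemma

If `S` is Sylow `s` in `G` with `N_G(S) ≤ C_G(S)`, `R` is Sylow `r`, `S` normalizes `R` but does not
centralize it, then `s k_{r,s}(G) ≤ |R| |S|`.
-/

set_option autoImplicit false
set_option linter.unusedSectionVars false
set_option linter.style.haveILetI false
set_option linter.style.longLine false

namespace Cfsg.Agent.Lib.PiClass.Pair

open Subgroup MulAction
open Cfsg.Agent.Lib.PiClass.Burn Cfsg.Agent.Lib.PiClass.Count
open Cfsg.Agent.Lib.Transfer.Basic Cfsg.Agent.Lib.Transfer.ClassCount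
  Cfsg.Agent.Lib.Transfer.PiClasses Cfsg.Agent.Lib.Transfer.PiClasses2
open Cfsg.Agent.Lib.Coprime.Action
open Cfsg.Agent.Lib.Transfer.Frobenius
open Cfsg.Agent.Lib.Coprime.SchurZassenhaus

universe u

variable {G : Type u} [Group G] [Finite G] {s r : ℕ} [hs : Fact s.Prime] [hr : Fact r.Prime]

/-- The action of an `s`-group `T` on an invariant `r`-group `R` which it does not centralize
has few fixed points. -/
theorem card_fixed_bound (hrs : r ≠ s) (T R : Subgroup G) (hT : IsPGroup s T) (hR : IsPGroup r R)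
    (hTR : T ≤ normalizer (R : Set G)) (hne : ¬ R ≤ centralizer (T : Set G)) :
    (s + 1) * Nat.card (R ⊓ centralizer (T : Set G) : Subgroup G) ≤ Nat.card R := by
  have hinv : ∀ g ∈ T, ∀ x ∈ (R : Set G), g * x * g⁻¹ ∈ (R : Set G) :=
    fun g hg x hx => (mem_normalizer_iff.mp (hTR hg) x).mp hx
  let A := InvSet T (R : Set G) hinv
  set C : Subgroup G := R ⊓ centralizer (T : Set G) with hC
  have hmod := hT.card_modEq_card_fixedPoints A
  have hcard : Nat.card (fixedPoints T A) = Nat.card C := by
    refine Nat.card_congr ⟨fun x => ⟨x.1.val, Subgroup.mem_inf.mpr ⟨x.1.mem, ?_⟩⟩,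
      fun y => ⟨InvSet.mk y.1 (Subgroup.mem_inf.mp y.2).1, ?_⟩, ?_, ?_⟩
    · rw [Subgroup.mem_centralizer_iff]
      intro t ht
      have h1 := congrArg InvSet.val (x.2 ⟨t, ht⟩)
      rw [smul_val] at h1
      change t * x.1.val * t⁻¹ = x.1.val at h1
      calc t * x.1.val = t * x.1.val * t⁻¹ * t := by group
        _ = x.1.val * t := by rw [h1]
    · intro t
      apply InvSet.ext
      rw [smul_val]
      have h1 := Subgroup.mem_centralizer_iff.mp (Subgroup.mem_inf.mp y.2).2 t t.2
      change (t : G) * y.1 * (t : G)⁻¹ = y.1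
      rw [h1]
      group
    · intro x
      rfl
    · intro y
      rfl
  rw [hcard] at hmod
  have hCR : C ≤ R := inf_le_left
  have hne' : C ≠ R := by
    intro h
    exact hne (h ▸ inf_le_right)
  obtain ⟨i, hi⟩ := hR.index (C.subgroupOf R)
  have h1 : C.relIndex R = r ^ i := hi
  have h2 := card_eq_card_mul_relIndex hCR
  have hi0 : i ≠ 0 := by
    rintro rfl
    rw [pow_zero] at h1
    have h3 : Nat.card R = Nat.card C := by rw [h2, h1, mul_one]
    exact hne' (Subgroup.eq_of_le_of_card_ge hCR h3.le)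
  have hR' : Nat.card A = Nat.card C * r ^ i := by
    change Nat.card R = _
    rw [h2, h1]
  rw [hR'] at hmod
  have hCcop : Nat.Coprime (Nat.card C) s := by
    have hCp : IsPGroup r C := hR.to_le hCR
    obtain ⟨j, hj⟩ := IsPGroup.iff_card.mp hCp
    rw [hj]
    exact Nat.Coprime.pow_left _ ((Nat.coprime_primes hr.out hs.out).mpr hrs)
  have h4 : r ^ i ≡ 1 [MOD s] := by
    have h5 : Nat.card C * r ^ i ≡ Nat.card C * 1 [MOD s] := by rwa [mul_one]
    exact Nat.ModEq.cancel_left_of_coprime (by rwa [Nat.coprime_comm, Nat.coprime_iff_gcd_eq_one] at hCcop) h5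
  have h6 : 2 ≤ r ^ i := by
    calc 2 ≤ r := hr.out.two_le
      _ = r ^ 1 := (pow_one r).symm
      _ ≤ r ^ i := Nat.pow_le_pow_right hr.out.pos (Nat.pos_of_ne_zero hi0)
  have h7 : s ∣ r ^ i - 1 := (Nat.modEq_iff_dvd' (by omega)).mp h4.symm
  have h8 : s ≤ r ^ i - 1 := Nat.le_of_dvd (by omega) h7
  have h9 : s + 1 ≤ r ^ i := by omega
  rw [h2, h1, mul_comm]
  exact Nat.mul_le_mul_left _ h9

/-- An element all of whose prime divisors of the order are `r` is an `r`-element. -/
theorem exists_pow_eq_one_of_isSig {x : G} (h : IsSig ({r} : Finset ℕ) x) :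
    ∃ k : ℕ, x ^ r ^ k = 1 := by
  have h1 : orderOf x = r ^ (orderOf x).primeFactorsList.length := by
    apply Nat.eq_prime_pow_of_unique_prime_dvd (orderOf_pos x).ne'
    intro d hd hdx
    exact Finset.mem_singleton.mp (h d hd hdx)
  refine ⟨(orderOf x).primeFactorsList.length, ?_⟩
  rw [← h1, pow_orderOf_eq_one]

/-- (P2) `(s + 1) k_r(G) ≤ 2 |R|`. -/
theorem card_classes_bound (hrs : r ≠ s) (S R : Subgroup G) (hS : IsPGroup s S) (hR : ¬ r ∣ R.index)
    (hRp : IsPGroup r R)
    (hSR : S ≤ normalizer (R : Set G)) (hne : ¬ R ≤ centralizer (S : Set G)) :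
    (s + 1) * Nat.card (SClasses ({r} : Finset ℕ) G) ≤ 2 * Nat.card R := by
  classical
  have hinv : ∀ g ∈ S, ∀ x ∈ (R : Set G), g * x * g⁻¹ ∈ (R : Set G) :=
    fun g hg x hx => (mem_normalizer_iff.mp (hSR hg) x).mp hx
  let A := InvSet S (R : Set G) hinv
  let Y : Subgroup S := (centralizer (R : Set G)).subgroupOf S
  have hfix : ∀ g ∈ Y, ∀ a : A, g • a = a := by
    intro g hg a
    apply InvSet.ext
    rw [smul_val]
    have h1 : (g : G) ∈ centralizer (R : Set G) := Subgroup.mem_subgroupOf.mp hg
    have h2 := Subgroup.mem_centralizer_iff.mp h1 a.val a.mem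
    rw [← h2]
    group
  have hnfix : ∀ g : S, g ∉ Y → (s + 1) * Nat.card (fixedBy A g) ≤ Nat.card A := by
    intro g hg
    have hg1 : (g : G) ∉ centralizer (R : Set G) := fun h => hg (Subgroup.mem_subgroupOf.mpr h)
    let T : Subgroup G := zpowers (g : G)
    have hTS : T ≤ S := by
      rw [Subgroup.zpowers_le]
      exact g.2
    have hb := card_fixed_bound hrs T R (hS.to_le hTS) hRp (hTS.trans hSR) (by
      intro h
      apply hg1
      rw [Subgroup.mem_centralizer_iff]
      intro x hx
      exact (Subgroup.mem_centralizer_iff.mp (h hx) (g : G) (mem_zpowers _)).symm)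
    refine le_trans (Nat.mul_le_mul_left _ ?_) hb
    let f : fixedBy A g → (R ⊓ centralizer (T : Set G) : Subgroup G) := fun x => ⟨x.1.val,
      Subgroup.mem_inf.mpr ⟨x.1.mem, by
        have h2 : g • x.1 = x.1 := x.2
        have h3 := congrArg InvSet.val h2
        rw [smul_val] at h3
        have h4 : (g : G) * x.1.val = x.1.val * (g : G) := by
          calc (g : G) * x.1.val = (g : G) * x.1.val * (g : G)⁻¹ * (g : G) := by group
            _ = x.1.val * (g : G) := by rw [h3]
        have h5 : zpowers (g : G) ≤ centralizer ({x.1.val} : Set G) := by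
          rw [Subgroup.zpowers_le, Subgroup.mem_centralizer_iff]
          intro z hz
          rw [Set.mem_singleton_iff.mp hz]
          exact h4.symm
        rw [Subgroup.mem_centralizer_iff]
        intro t ht
        exact (Subgroup.mem_centralizer_iff.mp (h5 ht) x.1.val rfl).symm⟩⟩
    apply Nat.card_le_card_of_injective f
    intro x y hxy
    apply Subtype.ext
    apply InvSet.ext
    exact congrArg (fun y : (R ⊓ centralizer (T : Set G) : Subgroup G) => (y : G)) hxy
  have hB := burnside_prod (M := S) (A := A) (B := PUnit.{1}) Y (s + 1) (by omega) hfix hnfix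
  have hsY : s * Nat.card Y ≤ Nat.card S := by
    have hYne : Y ≠ ⊤ := by
      intro h
      apply hne
      intro x hx
      rw [Subgroup.mem_centralizer_iff]
      intro t ht
      have h1 : (⟨t, ht⟩ : S) ∈ Y := h ▸ Subgroup.mem_top _
      have h2 : t ∈ centralizer (R : Set G) := Subgroup.mem_subgroupOf.mp h1
      exact (Subgroup.mem_centralizer_iff.mp h2 x hx).symm
    obtain ⟨i, hi⟩ := hS.index Y
    have h1 := Y.card_mul_index
    rw [hi] at h1
    rw [← h1, mul_comm]
    apply Nat.mul_le_mul_left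
    rcases i with _ | i
    · exfalso
      rw [pow_zero, Subgroup.index_eq_one] at hi
      exact hYne hi
    · calc s = s ^ 1 := (pow_one s).symm
        _ ≤ s ^ (i + 1) := Nat.pow_le_pow_right hs.out.pos (by omega)
  have hO1 : Nat.card (orbitRel.Quotient Y PUnit.{1}) ≤ 1 := by
    haveI : Subsingleton (orbitRel.Quotient Y PUnit.{1}) :=
      inferInstanceAs (Subsingleton (Quotient _))
    exact Finite.card_le_one_iff_subsingleton.mpr inferInstance
  have hO2 : Nat.card (orbitRel.Quotient S PUnit.{1}) ≤ 1 := by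
    haveI : Subsingleton (orbitRel.Quotient S PUnit.{1}) :=
      inferInstanceAs (Subsingleton (Quotient _))
    exact Finite.card_le_one_iff_subsingleton.mpr inferInstance
  -- the classes
  let Φ : orbitRel.Quotient S (A × PUnit.{1}) → ConjClasses G :=
    Quotient.lift (fun p => ConjClasses.mk p.1.val) (by
      rintro a b ⟨n, hn⟩
      have h1 : a.1 = n • b.1 := (congrArg Prod.fst hn).symm
      rw [h1, smul_val]
      exact mk_conj _ _)
  have hsurj : ∀ d : SClasses ({r} : Finset ℕ) G, ∃ o, Φ o = d.1 := by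
    intro d
    obtain ⟨x, hx⟩ := ConjClasses.exists_rep d.1
    have hxs : IsSig ({r} : Finset ℕ) x := isSig_of_mk_eq d hx
    have hI : IsSylowIn r R ⊤ := by
      refine ⟨le_top, hRp, ?_⟩
      rwa [Subgroup.relIndex_top_right]
    obtain ⟨c, -, hc⟩ := exists_conj_mem_of_isSylowIn hI (Subgroup.mem_top x)
      (exists_pow_eq_one_of_isSig hxs)
    refine ⟨Quotient.mk'' (InvSet.mk _ hc, PUnit.unit), ?_⟩
    change ConjClasses.mk (c⁻¹ * x * c) = d.1
    rw [← hx]
    have := mk_conj c⁻¹ x
    rwa [inv_inv] at this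
  choose f hf using hsurj
  have hinj : Function.Injective f := by
    intro d d' h
    apply Subtype.ext
    rw [← hf d, ← hf d', h]
  have h1 : Nat.card (SClasses ({r} : Finset ℕ) G) ≤ Nat.card (orbitRel.Quotient S (A × PUnit.{1})) :=
    Nat.card_le_card_of_injective f hinj
  have hAc : Nat.card A = Nat.card R := rfl
  rw [hAc, Nat.add_sub_cancel] at hB
  have hpos : 0 < Nat.card S := Nat.card_pos
  apply Nat.le_of_mul_le_mul_right _ hpos
  set o := Nat.card (orbitRel.Quotient S (A × PUnit.{1}))
  set k := Nat.card (SClasses ({r} : Finset ℕ) G)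
  set o1 := Nat.card (orbitRel.Quotient Y PUnit.{1})
  set o2 := Nat.card (orbitRel.Quotient S PUnit.{1})
  calc (s + 1) * k * Nat.card S ≤ (s + 1) * o * Nat.card S := by gcongr
    _ = (s + 1) * (o * Nat.card S) := by ring
    _ ≤ s * Nat.card R * (o1 * Nat.card Y) + Nat.card R * (o2 * Nat.card S) := hB
    _ ≤ s * Nat.card R * (1 * Nat.card Y) + Nat.card R * (1 * Nat.card S) := by gcongr
    _ = Nat.card R * (s * Nat.card Y) + Nat.card R * Nat.card S := by ring
    _ ≤ Nat.card R * Nat.card S + Nat.card R * Nat.card S := by gcongr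
    _ = 2 * Nat.card R * Nat.card S := by ring

section transfer

variable (S : Sylow s G)
  (hN : normalizer ((S : Subgroup G) : Set G) ≤ centralizer ((S : Subgroup G) : Set G))

/-- The normal `s`-complement. -/
noncomputable def KK : Subgroup G := (MonoidHom.transferSylow S hN).ker

instance : (KK S hN).Normal := by
  unfold KK
  infer_instance

theorem isCompl_KK : (KK S hN).IsComplement' (S : Subgroup G) :=
  MonoidHom.ker_transferSylow_isComplement' S hN

theorem card_KK : Nat.card (KK S hN) = (S : Subgroup G).index :=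
  (isCompl_KK S hN).index_eq_card.symm

theorem coprime_card_KK : (Nat.card (S : Subgroup G)).Coprime (Nat.card (KK S hN)) := by
  rw [card_KK, Sylow.card_eq_multiplicity]
  apply Nat.Coprime.pow_left
  exact (Nat.Prime.coprime_iff_not_dvd hs.out).mpr S.not_dvd_index

theorem le_KK (T : Subgroup G) (hT : (Nat.card T).Coprime s) : T ≤ KK S hN := by
  intro x hx
  have h1 : orderOf (MonoidHom.transferSylow S hN x) ∣ orderOf x := orderOf_map_dvd _ _
  have h2 : orderOf (MonoidHom.transferSylow S hN x) ∣ Nat.card (S : Subgroup G) :=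
    orderOf_dvd_natCard _
  have h3 : orderOf x ∣ Nat.card T := Subgroup.orderOf_dvd_natCard T hx
  have h4 : Nat.Coprime (orderOf x) (Nat.card (S : Subgroup G)) := by
    rw [Sylow.card_eq_multiplicity]
    exact Nat.Coprime.pow_right _ (Nat.Coprime.coprime_dvd_left h3 hT)
  have h5 : orderOf (MonoidHom.transferSylow S hN x) = 1 :=
    Nat.eq_one_of_dvd_coprimes h4 h1 h2
  rw [orderOf_eq_one_iff] at h5
  exact h5

theorem isSolvable_sylow : Group.IsSolvable (S : Subgroup G) := by
  haveI := S.isPGroup'.isNilpotent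
  infer_instance

include hN in
/-- (P1) `(s + 1) k_r(C_G(S)) ≤ |R|`. -/
theorem card_classes_centralizer_bound (hrs : r ≠ s) (R : Sylow r G)
    (hSR : (S : Subgroup G) ≤ normalizer ((R : Subgroup G) : Set G))
    (hne : ¬ (R : Subgroup G) ≤ centralizer ((S : Subgroup G) : Set G)) :
    (s + 1) * Nat.card (SClasses ({r} : Finset ℕ) (CS S)) ≤ Nat.card (R : Subgroup G) := by
  obtain ⟨D⟩ : Nonempty (Sylow r (CS S)) := inferInstance
  have h1 : Nat.card (SClasses ({r} : Finset ℕ) (CS S)) ≤ Nat.card (D : Subgroup (CS S)) := by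
    have h2 := card_sClasses_le ({r} : Finset ℕ) (by simpa using hr.out) (CS S)
    rw [Finset.prod_singleton] at h2
    rwa [Sylow.card_eq_multiplicity]
  let D' : Subgroup G := (D : Subgroup (CS S)).map (CS S).subtype
  have hD'c : Nat.card D' = Nat.card (D : Subgroup (CS S)) :=
    Subgroup.card_map_of_injective (CS S).subtype_injective
  have hD'p : IsPGroup r D' := D.isPGroup'.map _
  have hD'C : D' ≤ CS S := Subgroup.map_subtype_le _
  have hcop2 : ∀ T : Subgroup G, IsPGroup r T → (Nat.card T).Coprime s := by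
    intro T hT
    obtain ⟨j, hj⟩ := IsPGroup.iff_card.mp hT
    rw [hj]
    exact Nat.Coprime.pow_left _ ((Nat.coprime_primes hr.out hs.out).mpr hrs)
  have hAK : (S : Subgroup G) ≤ normalizer ((KK S hN : Subgroup G) : Set G) := by
    rw [Subgroup.normalizer_eq_top]
    exact le_top
  have hcop := coprime_card_KK S hN
  have hsolv : Group.IsSolvable (S : Subgroup G) ∨ Group.IsSolvable (KK S hN) :=
    Or.inl (isSolvable_sylow S)
  have hRK : (R : Subgroup G) ≤ KK S hN := le_KK S hN _ (hcop2 _ R.isPGroup')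
  have hD'K : D' ≤ KK S hN := le_KK S hN _ (hcop2 _ hD'p)
  have hD'N : (S : Subgroup G) ≤ normalizer (D' : Set G) := by
    intro t ht
    have hcomm : ∀ x ∈ D', t * x * t⁻¹ = x := by
      intro x hx
      have h2 := Subgroup.mem_centralizer_iff.mp (hD'C hx) t ht
      rw [h2]
      group
    rw [Subgroup.mem_normalizer_iff]
    intro n
    constructor
    · intro hn
      rw [hcomm n hn]
      exact hn
    · intro hn
      have h2 := Subgroup.mem_centralizer_iff.mp (hD'C hn) t ht
      have h4 : n = t * n * t⁻¹ := by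
        have h5 : t * (t * n * t⁻¹) = (t * n * t⁻¹) * t := h2
        have h6 : t * n * t⁻¹ = n := by
          have h7 : t * (t * n * t⁻¹) * t⁻¹ = t * n * t⁻¹ := by
            rw [h5]
            group
          have h8 : t * (t * n * t⁻¹) * t⁻¹ = t * (t * n * t⁻¹ * t⁻¹) := by group
          rw [h8] at h7
          have h9 := mul_left_cancel (a := t) (b := t * n * t⁻¹ * t⁻¹) (c := n * t⁻¹) (by
            rw [h7]
            group)
          exact mul_right_cancel h9
        exact h6.symm
      rw [h4]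
      exact hn
  obtain ⟨Q, hQ, hQN, hDQ⟩ := exists_invariant_sylowIn_ge hAK hcop hsolv hD'K hD'p hD'N
  obtain ⟨c, hc, hcQ⟩ := invariant_sylowIn_conj hAK hcop hsolv hQ (isSylowIn_of_le R hRK) hQN hSR
  have h3 : Nat.card D' ≤ Nat.card ((R : Subgroup G) ⊓ centralizer ((S : Subgroup G) : Set G) : Subgroup G) := by
    let f : D' → ((R : Subgroup G) ⊓ centralizer ((S : Subgroup G) : Set G) : Subgroup G) :=
      fun x => ⟨c * x * c⁻¹, by
        refine Subgroup.mem_inf.mpr ⟨?_, ?_⟩
        · rw [← hcQ, mem_conj_smul_iff]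
          have h6 : c⁻¹ * (c * (x : G) * c⁻¹) * c = x := by group
          rw [h6]
          exact hDQ x.2
        · rw [Subgroup.mem_centralizer_iff]
          intro z hz
          have h6 := Subgroup.mem_centralizer_iff.mp (Subgroup.mem_inf.mp hc).2 z hz
          have h7 := Subgroup.mem_centralizer_iff.mp (hD'C x.2) z hz
          calc z * (c * (x : G) * c⁻¹) = (z * c) * (x : G) * c⁻¹ := by group
            _ = (c * z) * (x : G) * c⁻¹ := by rw [h6]
            _ = c * (z * (x : G)) * c⁻¹ := by group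
            _ = c * ((x : G) * z) * c⁻¹ := by rw [h7]
            _ = c * (x : G) * (z * c⁻¹) := by group
            _ = c * (x : G) * (c⁻¹ * z) := by
              have h8 : z * c⁻¹ = c⁻¹ * z := by
                calc z * c⁻¹ = c⁻¹ * (c * z) * c⁻¹ := by group
                  _ = c⁻¹ * (z * c) * c⁻¹ := by rw [h6]
                  _ = c⁻¹ * z := by group
              rw [h8]
            _ = _ := by group⟩
    apply Nat.card_le_card_of_injective f
    intro x y hxy
    have h4 : c * (x : G) * c⁻¹ = c * (y : G) * c⁻¹ := congrArg Subtype.val hxy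
    apply Subtype.ext
    exact mul_left_cancel (mul_right_cancel h4)
  have h5 := card_fixed_bound hrs (S : Subgroup G) (R : Subgroup G) S.isPGroup' R.isPGroup' hSR hne
  calc (s + 1) * Nat.card (SClasses ({r} : Finset ℕ) (CS S))
      ≤ (s + 1) * Nat.card ((R : Subgroup G) ⊓ centralizer ((S : Subgroup G) : Set G) : Subgroup G) := by
        apply Nat.mul_le_mul_left
        rw [← hD'c] at h1
        exact h1.trans h3
    _ ≤ _ := h5

include hN in
/-- The pair lemma. -/
theorem pair_count (hrs : r ≠ s) (R : Sylow r G)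
    (hSR : (S : Subgroup G) ≤ normalizer ((R : Subgroup G) : Set G))
    (hne : ¬ (R : Subgroup G) ≤ centralizer ((S : Subgroup G) : Set G)) :
    s * Nat.card (SClasses (insert s ({r} : Finset ℕ)) G) ≤
      Nat.card (R : Subgroup G) * Nat.card (S : Subgroup G) := by
  have hE := count_E2 S ({r} : Finset ℕ)
  have hNC : NS S = CS S := le_antisymm hN (Subgroup.centralizer_le_normalizer _)
  have h1 := card_classes_centralizer_bound S hN hrs R hSR hne
  have h2 := card_classes_bound hrs (S : Subgroup G) (R : Subgroup G) S.isPGroup' R.not_dvd_index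
    R.isPGroup' hSR hne
  rw [hNC] at hE
  have hpos : 0 < Nat.card (CS S) := Nat.card_pos
  set y := Nat.card (CS S)
  set k := Nat.card (SClasses (insert s ({r} : Finset ℕ)) G)
  set κ := Nat.card (SClasses ({r} : Finset ℕ) (CS S))
  set k₁ := Nat.card (SClasses ({r} : Finset ℕ) G)
  set a := Nat.card (S : Subgroup G)
  set b := Nat.card (R : Subgroup G)
  have hs1 : 1 ≤ s := hs.out.one_le
  obtain ⟨d, rfl⟩ : ∃ d, s = d + 1 := ⟨s - 1, by omega⟩
  simp only [Nat.add_sub_cancel] at hE
  have h3 : (d + 1) * k ≤ d * a * κ + a * k₁ := by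
    apply Nat.le_of_mul_le_mul_right _ hpos
    calc (d + 1) * k * y = (d + 1) * y * k := by ring
      _ ≤ d * a * y * κ + a * y * k₁ := hE
      _ = (d * a * κ + a * k₁) * y := by ring
  have hs2 : 0 < d + 1 + 1 := by omega
  apply Nat.le_of_mul_le_mul_left _ hs2
  calc (d + 1 + 1) * ((d + 1) * k) ≤ (d + 1 + 1) * (d * a * κ + a * k₁) := Nat.mul_le_mul_left _ h3
    _ = d * a * ((d + 1 + 1) * κ) + a * ((d + 1 + 1) * k₁) := by ring
    _ ≤ d * a * b + a * (2 * b) := by gcongr
    _ = (d + 1 + 1) * (b * a) := by ring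

end transfer

end Cfsg.Agent.Lib.PiClass.Pair
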